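import Cfsg.Agent.Lib.WApp.Aut
import Cfsg.Agent.Lib.Hom.Odd

/-!
# Automorphisms of `SL₂(p)` and `PSL₂(p)`
-/

set_option autoImplicit false

namespace CfsgLib.Hom

open Subgroup Cfsg CfsgLib.JR Matrix MatrixGroups CfsgLib.H1 CfsgLib.H5 CfsgLib.WApp

section General

variable {F : Type*} [Field F]

theorem conjSL2_mul (P : GL (Fin 2) F) (g : SL(2, F)) : (conjSL2 P g).1 * P.1 = P.1 * g.1 := by
  change P.1 * g.1 * (P⁻¹).1 * P.1 = _
  rw [Matrix.mul_assoc, P.inv_mul, Matrix.mul_one]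

theorem eq_conjSL2 {P : GL (Fin 2) F} {g h : SL(2, F)} (e : h.1 * P.1 = P.1 * g.1) :
    h = conjSL2 P g := by
  refine Subtype.ext ?_
  change _ = P.1 * g.1 * (P⁻¹).1
  rw [← e, Matrix.mul_assoc, P.mul_inv, Matrix.mul_one]

theorem exists_gl_upT {a : SL(2, F)} (ha : a 0 0 + a 1 1 = 2) (h1 : a ≠ 1) :
    ∃ P : GL (Fin 2) F, a = conjSL2 P (upT 1) := by
  have hd := SL2_det a
  have key : ∀ Q : Matrix (Fin 2) (Fin 2) F, Q.det ≠ 0 → a * Q = Q * upT (1 : F) →
      ∃ P : GL (Fin 2) F, a = conjSL2 P (upT 1) := fun Q hQ h =>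
    ⟨GeneralLinearGroup.mkOfDetNeZero Q hQ, eq_conjSL2 h⟩
  by_cases h01 : a 0 1 = 0
  · rw [h01] at hd
    have h5 : (a 0 0 - 1) ^ 2 = 0 := by linear_combination a 0 0 * ha - hd
    have h6 : a 0 0 = 1 := sub_eq_zero.1 (pow_eq_zero_iff two_ne_zero |>.1 h5)
    have h7 : a 1 1 = 1 := by linear_combination ha - h6
    have h10 : a 1 0 ≠ 0 := fun h => h1 (SL2_ext h6 h01 h h7)
    refine key !![0, 1; a 1 0, 0] (by simpa [det_fin_two] using h10) ?_
    ext i j
    fin_cases i <;> fin_cases j <;>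
      simp [Matrix.mul_apply, Fin.sum_univ_two, upT_00, upT_01, upT_10, upT_11, h01, h6, h7]
  · refine key !![a 0 1, 0; a 1 1 - 1, 1] (by simpa [det_fin_two] using h01) ?_
    ext i j
    fin_cases i <;> fin_cases j <;>
      simp [Matrix.mul_apply, Fin.sum_univ_two, upT_00, upT_01, upT_10, upT_11]
    · linear_combination a 0 1 * ha
    · linear_combination (-1 : F) * hd + a 1 1 * ha

/-- The automorphism of `PSL₂` induced by an automorphism of `SL₂`. -/
def indAut (φ : MulAut SL(2, F)) : MulAut PSL(2, F) :=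
  QuotientGroup.congr _ _ φ (characteristic_iff_map_eq.1 inferInstance φ)

theorem indAut_pr (φ : MulAut SL(2, F)) (g : SL(2, F)) : indAut φ (pr F g) = pr F (φ g) := rfl

theorem eq_one_of_gen {α : MulAut PSL(2, F)} (hα : ∀ x, α (uu x) = uu x)
    (hs : α (pr F (loT (-1))) = pr F (loT (-1))) : α = 1 := by
  have h5 : ∀ c : F, pr F (loT c) = (uu 1 * pr F (loT (-1)) * uu 1) * uu (-c) *
      (uu 1 * pr F (loT (-1)) * uu 1)⁻¹ := fun c => by
    rw [eq_mul_inv_iff_mul_eq, uu, uu, ← map_mul, ← map_mul, ← map_mul, ← map_mul]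
    congr 1
    apply SL2_ext <;> simp only [SL2_mul_apply, upT_00, upT_01, upT_10, upT_11, loT_00, loT_01,
      loT_10, loT_11] <;> ring
  ext x
  obtain ⟨x, rfl⟩ := pr_surj x
  rw [MulAut.one_apply]
  induction x using SL2.transvection_induction with
  | htransvec i j hij c =>
    fin_cases i <;> fin_cases j
    · exact (hij rfl).elim
    · exact hα c
    · change α (pr F (loT c)) = pr F (loT c)
      rw [h5]
      simp only [map_mul, map_inv, hα, hs]
    · exact (hij rfl).elim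
  | hmul A B hA hB => rw [map_mul, map_mul, hA, hB]

theorem loT_ne : pr F (loT (-1)) ≠ uu 1 := fun e => by
  rcases pr_eq e with e | e
  · simpa [loT_10, upT_10] using congrArg (fun m : SL(2, F) => m 1 0) e
  · have := congrArg (fun m : SL(2, F) => m 1 0) e
    simp only [neg_apply', loT_10, upT_10] at this
    simp at this

theorem trace_conjSL2 (P : GL (Fin 2) F) (g : SL(2, F)) :
    conjSL2 P g 0 0 + conjSL2 P g 1 1 = g 0 0 + g 1 1 := by
  have : Matrix.trace (conjSL2 P g).1 = Matrix.trace g.1 := by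
    change Matrix.trace (P.1 * g.1 * (P⁻¹).1) = _
    rw [Matrix.trace_mul_comm, ← Matrix.mul_assoc, P.inv_mul, Matrix.one_mul]
  simpa [Matrix.trace_fin_two] using this

theorem exists_sq (P : GL (Fin 2) F) : ∃ (g : SL(2, F)) (Q : GL (Fin 2) F),
    (∀ x, g * conjSL2 P x * g⁻¹ = conjSL2 Q x) ∧ ∀ x, conjSL2 Q (conjSL2 Q x) = x := by
  have hd : P.1.det ≠ 0 := P.det_ne_zero
  have hB : (!![0, -P.1.det; 1, 0] : Matrix (Fin 2) (Fin 2) F).det = P.1.det := by
    simp [det_fin_two]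
  let Q : GL (Fin 2) F := GeneralLinearGroup.mkOfDetNeZero _ (hB ▸ hd)
  have hQ : Q.1 = !![0, -P.1.det; 1, 0] := rfl
  let g : SL(2, F) := ⟨Q.1 * (P⁻¹).1, by
    rw [det_mul, hQ, hB, ← det_mul, P.mul_inv, det_one]⟩
  have hg : g.1 * P.1 = Q.1 := by
    change Q.1 * (P⁻¹).1 * P.1 = _
    rw [Matrix.mul_assoc, P.inv_mul, Matrix.mul_one]
  refine ⟨g, Q, fun x => eq_conjSL2 ?_, fun x => ?_⟩
  · have e : (g⁻¹).1 * g.1 = 1 := congrArg Subtype.val (inv_mul_cancel g)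
    have e2 : (g⁻¹).1 * Q.1 = P.1 := by rw [← hg, ← Matrix.mul_assoc, e, Matrix.one_mul]
    calc (g * conjSL2 P x * g⁻¹).1 * Q.1 = g.1 * ((conjSL2 P x).1 * ((g⁻¹).1 * Q.1)) := by
          change g.1 * (conjSL2 P x).1 * (g⁻¹).1 * Q.1 = _
          rw [Matrix.mul_assoc, Matrix.mul_assoc]
      _ = Q.1 * x.1 := by rw [e2, conjSL2_mul, ← Matrix.mul_assoc, hg]
  · have h1 := conjSL2_mul Q (conjSL2 Q x)
    have h2 := conjSL2_mul Q x
    have h3 : Q.1 * Q.1 = (-P.1.det) • (1 : Matrix (Fin 2) (Fin 2) F) := by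
      rw [hQ]
      ext i j
      fin_cases i <;> fin_cases j <;> simp [Matrix.mul_apply, Fin.sum_univ_two]
    have h4 : (conjSL2 Q (conjSL2 Q x)).1 * (Q.1 * Q.1) = (Q.1 * Q.1) * x.1 := by
      rw [← Matrix.mul_assoc, h1, Matrix.mul_assoc, h2, Matrix.mul_assoc]
    rw [h3, Matrix.mul_smul, Matrix.smul_mul, Matrix.mul_one, Matrix.one_mul] at h4
    exact Subtype.ext (smul_right_injective _ (neg_ne_zero.2 hd) h4)

end General

variable {p : ℕ} [Fact p.Prime]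

theorem two_ne (h5 : 5 ≤ p) : (2 : ZMod p) ≠ 0 := fun h => by
  have : p ∣ 2 := (ZMod.natCast_eq_zero_iff 2 p).1 (by exact_mod_cast h)
  have := Nat.le_of_dvd two_pos this
  omega

theorem odd_of_five (h5 : 5 ≤ p) : Odd p :=
  (Fact.out : p.Prime).odd_of_ne_two (by omega)

theorem aut_psl' (h5 : 5 ≤ p) (α : MulAut PSL(2, ZMod p)) :
    ∃ P : GL (Fin 2) (ZMod p), ∀ g, α (pr _ g) = pr _ (conjSL2 P g) := by
  have h2 := two_ne h5
  have hu : uu (1 : ZMod p) ^ p = 1 := by rw [uu_pow]; simp [uu_zero]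
  have hu1 : uu (1 : ZMod p) ≠ 1 := fun e => one_ne_zero (uu_inj (e.trans uu_zero.symm))
  obtain ⟨Y, hY, hYp⟩ : ∃ Y : SL(2, ZMod p), pr _ Y = α (uu 1) ∧ Y ^ p = 1 := by
    obtain ⟨Y, hY⟩ := pr_surj (α (uu 1))
    have : pr _ (Y ^ p) = pr _ 1 := by rw [map_pow, hY, ← map_pow, hu, map_one, map_one]
    rcases pr_eq this with e | e
    · exact ⟨Y, hY, e⟩
    · exact ⟨-Y, (pr_neg Y).trans hY, by rw [(odd_of_five h5).neg_pow, e, neg_neg]⟩
  obtain ⟨P, hP⟩ := exists_gl_upT (SL2_trace_of_pow (p := p) (k := 1) (by rw [pow_one, hYp]))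
    (fun e => hu1 (α.injective (by rw [← hY, e, map_one, map_one])))
  let β : MulAut PSL(2, ZMod p) := (indAut (conjSL2 P))⁻¹ * α
  have hβ1 : β (uu 1) = uu 1 := by
    change (indAut (conjSL2 P)).symm (α (uu 1)) = _
    rw [MulEquiv.symm_apply_eq, ← hY, hP]
    rfl
  have hβ : ∀ x, β (uu x) = uu x := fun x => by
    have : uu x = uu 1 ^ x.val := by rw [uu_pow]; simp
    rw [this, map_pow, hβ1]
  obtain ⟨s, hs⟩ := eq_of_braid h2 (y := β (pr _ (loT (-1))))
    (by simpa only [map_mul, hβ] using congrArg β braid)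
    fun e => loT_ne (β.injective (e.trans (hβ 1).symm))
  have hγ : (MulAut.conj (uu s))⁻¹ * β = 1 := by
    refine eq_one_of_gen (fun x => ?_) ?_
    · rw [MulAut.mul_apply, hβ, MulAut.conj_inv_apply, ← uu_neg, ← uu_add, ← uu_add]
      congr 1; ring
    · rw [MulAut.mul_apply, hs, MulAut.conj_inv_apply]; group
  rw [inv_mul_eq_one] at hγ
  refine ⟨P * SpecialLinearGroup.toGL (upT s), fun g => ?_⟩
  have e1 : α (pr _ g) = indAut (conjSL2 P) (β (pr _ g)) := by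
    change _ = indAut (conjSL2 P) ((indAut (conjSL2 P)).symm (α _))
    rw [MulEquiv.apply_symm_apply]
  rw [e1, ← hγ, MulAut.conj_apply, uu, ← map_inv, ← map_mul, ← map_mul, indAut_pr]
  congr 1
  refine eq_conjSL2 ?_
  have e2 := conjSL2_mul P (upT s * g * (upT s)⁻¹)
  have e3 : (upT s * g * (upT s)⁻¹).1 * (upT s).1 = (upT s).1 * g.1 :=
    congrArg Subtype.val (inv_mul_cancel_right (upT s * g) (upT s))
  change _ * (P.1 * (upT s).1) = P.1 * (upT s).1 * g.1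
  rw [← Matrix.mul_assoc, e2, Matrix.mul_assoc, e3, Matrix.mul_assoc]

theorem aut_sl' (h5 : 5 ≤ p) (α : MulAut SL(2, ZMod p)) :
    ∃ P : GL (Fin 2) (ZMod p), ∀ g, α g = conjSL2 P g := by
  obtain ⟨P, hP⟩ := aut_psl' h5 (indAut α)
  refine ⟨P, fun g => ?_⟩
  induction g using SL2.transvection_induction with
  | htransvec i j hij c =>
    have ht : SpecialLinearGroup.transvection hij c ^ p = 1 := by
      refine SL2_pow_char_eq_one ?_
      fin_cases i <;> fin_cases j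
      · exact (hij rfl).elim
      · change upT c 0 0 + upT c 1 1 = 2
        rw [upT_00, upT_11]; norm_num
      · change loT c 0 0 + loT c 1 1 = 2
        rw [loT_00, loT_11]; norm_num
      · exact (hij rfl).elim
    rcases pr_eq ((indAut_pr α _).symm.trans (hP (SpecialLinearGroup.transvection hij c))) with
      e | e
    · exact e
    · have := congrArg (· ^ p) e
      simp only [(odd_of_five h5).neg_pow, ← map_pow, ht, map_one] at this
      exact absurd this.symm (neg_one_ne (two_ne h5))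
  | hmul A B hA hB => rw [map_mul, map_mul, hA, hB]

/-- Automorphisms of `PSL₂(p)` are induced by `GL₂(p)`. -/
theorem aut_psl (h5 : 5 ≤ p) (α : MulAut PSL(2, ZMod p)) :
    ∃ A : Matrix (Fin 2) (Fin 2) (ZMod p), A.det ≠ 0 ∧ ∀ g : SL(2, ZMod p), ∃ g' : SL(2, ZMod p),
      g'.1 * A = A * g.1 ∧ α (pr _ g) = pr _ g' := by
  obtain ⟨P, hP⟩ := aut_psl' h5 α
  exact ⟨P.1, P.det_ne_zero, fun g => ⟨_, conjSL2_mul P g, hP g⟩⟩

theorem aut_sl (h5 : 5 ≤ p) (α : MulAut SL(2, ZMod p)) :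
    ∃ A : Matrix (Fin 2) (Fin 2) (ZMod p), A.det ≠ 0 ∧
      ∀ g : SL(2, ZMod p), (α g).1 * A = A * g.1 := by
  obtain ⟨P, hP⟩ := aut_sl' h5 α
  exact ⟨P.1, P.det_ne_zero, fun g => by rw [hP, conjSL2_mul]⟩

theorem aut_psl_sq (h5 : 5 ≤ p) (α : MulAut PSL(2, ZMod p)) :
    ∃ g, (MulAut.conj g * α) ^ 2 = 1 := by
  obtain ⟨P, hP⟩ := aut_psl' h5 α
  obtain ⟨g, Q, h1, h2⟩ := exists_sq P
  have e : ∀ x, (MulAut.conj (pr _ g) * α) (pr _ x) = pr _ (conjSL2 Q x) := fun x => by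
    rw [MulAut.mul_apply, hP, MulAut.conj_apply, ← map_inv, ← map_mul, ← map_mul, h1]
  refine ⟨pr _ g, ?_⟩
  ext x
  obtain ⟨x, rfl⟩ := pr_surj x
  rw [sq, MulAut.mul_apply, e, e, h2, MulAut.one_apply]

theorem aut_sl_sq (h5 : 5 ≤ p) (α : MulAut SL(2, ZMod p)) :
    ∃ g, (MulAut.conj g * α) ^ 2 = 1 := by
  obtain ⟨P, hP⟩ := aut_sl' h5 α
  obtain ⟨g, Q, h1, h2⟩ := exists_sq P
  have e : ∀ x, (MulAut.conj g * α) x = conjSL2 Q x := fun x => by
    rw [MulAut.mul_apply, hP, MulAut.conj_apply, h1]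
  refine ⟨g, MulEquiv.ext fun x => ?_⟩
  rw [sq, MulAut.mul_apply, e, e, h2, MulAut.one_apply]

theorem pow_twelve (h5 : 5 ≤ p) (h : OW PSL(2, ZMod p)) {y : SL(2, ZMod p)}
    (ho : Odd (orderOf y)) : y ^ (12 * p) = 1 := by
  have ho' : Odd (orderOf (pr _ y)) := ho.of_dvd_nat (orderOf_map_dvd _ y)
  obtain ⟨φ, hφ⟩ := h.cj (pr _ y) (pr _ y ^ 2) ho'
    ((Nat.coprime_two_right.2 ho').orderOf_pow).symm
  obtain ⟨P, hP⟩ := aut_psl' h5 φ
  rw [hP, ← map_pow] at hφ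
  have ht := trace_conjSL2 P y
  have hd := SL2_det y
  have h3 : ((y 0 0 + y 1 1) ^ 2 - 4) * ((y 0 0 + y 1 1) ^ 2 - 1) = 0 := by
    rcases pr_eq hφ with e | e
    · rw [e, sq y, SL2_mul_apply, SL2_mul_apply] at ht
      linear_combination ((y 0 0 + y 1 1) ^ 2 + (y 0 0 + y 1 1) - 2) * ht +
        2 * ((y 0 0 + y 1 1) ^ 2 + (y 0 0 + y 1 1) - 2) * hd
    · rw [e, neg_apply', neg_apply', sq y, SL2_mul_apply, SL2_mul_apply] at ht
      linear_combination (-((y 0 0 + y 1 1) ^ 2 - (y 0 0 + y 1 1) - 2)) * ht +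
        2 * ((y 0 0 + y 1 1) ^ 2 - (y 0 0 + y 1 1) - 2) * hd
  rcases mul_eq_zero.1 h3 with h4 | h4
  · have := SL2_pow_of_trace_sq (r := p) (sub_eq_zero.1 h4)
    rw [show 12 * p = 2 * p * 6 by ring, pow_mul, pow_mul, this, one_pow]
  · have h6 : y ^ 3 ∈ center SL(2, ZMod p) := by
      rw [SL2_mem_center_iff, pow_succ, sq]
      simp only [SL2_mul_apply]
      refine ⟨?_, ?_, ?_⟩
      · linear_combination y 0 1 * h4 - y 0 1 * hd
      · linear_combination y 1 0 * h4 - y 1 0 * hd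
      · linear_combination (y 0 0 - y 1 1) * h4 - (y 0 0 - y 1 1) * hd
    have := SL2_sq_eq_one_of_mem_center h6
    rw [show 12 * p = 3 * (2 * (2 * p)) by ring, pow_mul, pow_mul, this, one_pow]

theorem five_or_seven (h5 : 5 ≤ p) (h : OW PSL(2, ZMod p)) : p = 5 ∨ p = 7 := by
  have hp : p.Prime := Fact.out
  have hc : Nat.card SL(2, ZMod p) = p * (p ^ 2 - 1) := by
    rw [SL2C.card_SL2, Nat.card_zmod]
  have hnd : ¬ p ∣ p ^ 2 - 1 := fun h => hp.one_lt.ne' (Nat.dvd_one.1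
    ((Nat.dvd_sub_iff_right (Nat.one_le_pow _ _ hp.pos) (dvd_pow_self p two_ne_zero)).1 h))
  have h1 : ∀ r : ℕ, r.Prime → r ≠ 2 → r ∣ p ^ 2 - 1 → r = 3 := by
    intro r hr hr2 hd
    have := Fact.mk hr
    obtain ⟨y, hy⟩ := exists_prime_orderOf_dvd_card' (G := SL(2, ZMod p)) r
      (hc ▸ hd.mul_left p)
    have h3 := orderOf_dvd_of_pow_eq_one (pow_twelve h5 h (hy ▸ hr.odd_of_ne_two hr2))
    rw [hy] at h3
    rcases hr.dvd_mul.1 h3 with h4 | h4
    · rcases hr.dvd_mul.1 (show r ∣ 2 ^ 2 * 3 from h4) with h6 | h6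
      · exact absurd ((Nat.prime_dvd_prime_iff_eq hr Nat.prime_two).1 (hr.dvd_of_dvd_pow h6)) hr2
      · exact (Nat.prime_dvd_prime_iff_eq hr Nat.prime_three).1 h6
    · exact absurd ((Nat.prime_dvd_prime_iff_eq hr hp).1 h4 ▸ hd) hnd
  have h9 : ¬ 9 ∣ p ^ 2 - 1 := by
    intro hd
    have := Fact.mk Nat.prime_three
    obtain ⟨R, hR⟩ := Sylow.exists_subgroup_card_pow_prime (G := SL(2, ZMod p)) 3 (n := 2)
      (hc ▸ hd.mul_left p)
    have hcomm := (IsPGroup.isMulCommutative_of_card_eq_prime_sq hR).is_comm.comm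
    obtain ⟨x, hx⟩ := exists_prime_orderOf_dvd_card' (G := R) 3 (by rw [hR]; norm_num)
    have hx' : orderOf (x : SL(2, ZMod p)) = 3 := by rw [orderOf_coe, hx]
    have ht : ((x : SL(2, ZMod p)) 0 0 + (x : SL(2, ZMod p)) 1 1) ^ 2 ≠ 4 := fun e => by
      have h3 := SL2_pow_of_trace_sq (r := p) e
      rw [← pow_mul] at h3
      have h4 := orderOf_dvd_of_pow_eq_one h3
      rw [hx'] at h4
      rcases Nat.prime_three.dvd_mul.1 h4 with h6 | h6
      · norm_num at h6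
      · have := (Nat.prime_dvd_prime_iff_eq Nat.prime_three hp).1 h6
        omega
    have hcy := (SL2_centralizer ht).1
    have hle : R ≤ centralizer ({(x : SL(2, ZMod p))} : Set _) := fun y hy =>
      mem_centralizer_singleton_iff.2 (congrArg Subtype.val (hcomm ⟨y, hy⟩ x))
    have : IsCyclic R := isCyclic_of_le hle
    obtain ⟨y, hy⟩ := IsCyclic.exists_ofOrder_eq_natCard (α := R)
    have hy' : orderOf (y : SL(2, ZMod p)) = 9 := by rw [orderOf_coe, hy, hR]; rfl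
    have h3 := orderOf_dvd_of_pow_eq_one (pow_twelve h5 h (y := y) (by rw [hy']; decide))
    rw [hy'] at h3
    have h4 : 3 ∣ 4 * p := Nat.dvd_of_mul_dvd_mul_left (by norm_num : 0 < 3)
      (by rwa [show 3 * (4 * p) = 12 * p by ring])
    rcases Nat.prime_three.dvd_mul.1 h4 with h6 | h6
    · norm_num at h6
    · have := (Nat.prime_dvd_prime_iff_eq Nat.prime_three hp).1 h6
      omega
  have key : ∀ k : ℕ, k % 2 = 1 → k ∣ p ^ 2 - 1 → k = 1 ∨ k = 3 := by
    intro k hk hd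
    have h3 : ∀ m : ℕ, m ∣ k → m ≠ 1 → 3 ∣ m := fun m hm hm1 => by
      have h6 := h1 _ (Nat.minFac_prime hm1) (fun e => by
        have := (e ▸ Nat.minFac_dvd m).trans hm
        omega) ((Nat.minFac_dvd m).trans (hm.trans hd))
      exact h6 ▸ Nat.minFac_dvd m
    by_cases hk1 : k = 1
    · exact Or.inl hk1
    obtain ⟨m, rfl⟩ := h3 k dvd_rfl hk1
    by_cases hm1 : m = 1
    · right; rw [hm1]
    obtain ⟨n, rfl⟩ := h3 m (Dvd.intro_left 3 rfl) hm1
    exact absurd (Dvd.dvd.trans ⟨n, by ring⟩ hd) h9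
  have e : p ^ 2 - 1 = (p + 1) * (p - 1) := by rw [← Nat.sq_sub_sq]
  obtain ⟨m, hm⟩ := odd_of_five h5
  rcases Nat.mod_two_eq_zero_or_one m with h0 | h0
  · have := key (m + 1) (by omega) (e ▸ Dvd.dvd.mul_right ⟨2, by omega⟩ _)
    omega
  · have := key m h0 (e ▸ Dvd.dvd.mul_left ⟨2, by omega⟩ _)
    omega

theorem zmod_seven : ((0 : ZMod 7) + 3) ^ 2 = 2 ∧ (-(0 : ZMod 7) + -3) ^ 2 = 2 ∧
    -(0 : ZMod 7) + -3 ≠ 0 + 3 := by decide

theorem not_hm_sl7 [Fact (Nat.Prime 7)] : ¬ Hm SL(2, ZMod 7) := by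
  intro h
  have h2 : (2 : ZMod 7) ≠ 0 := two_ne (by norm_num)
  have : Fact (Nat.Prime 2) := ⟨Nat.prime_two⟩
  let x : SL(2, ZMod 7) := ⟨!![0, -1; 1, 3], by simp [det_fin_two]⟩
  have key : ∀ y : SL(2, ZMod 7), (y 0 0 + y 1 1) ^ 2 = 2 → orderOf y = 2 ^ 3 := by
    intro y hy
    have hd := SL2_det y
    have h4 : (y * y) * (y * y) = -1 := sq_of_trace (by
      simp only [SL2_mul_apply]
      linear_combination hy - 2 * hd)
    have h5 : y ^ 2 ^ 2 = -1 := by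
      rw [← h4, show 2 ^ 2 = 1 + 1 + 1 + 1 from rfl]
      simp only [pow_succ, pow_zero, one_mul, mul_assoc]
    refine orderOf_eq_prime_pow (by rw [h5]; exact neg_one_ne h2) ?_
    rw [pow_succ, pow_mul, h5]
    simp
  obtain ⟨n1, n2, n3⟩ := zmod_seven
  have e0 : x 0 0 = 0 := rfl
  have e1 : x 1 1 = 3 := rfl
  obtain ⟨φ, hφ⟩ := h.cj (a := x) (b := -x) (by
    rw [key x (by rw [e0, e1]; exact n1), key (-x) (by
      rw [neg_apply', neg_apply', e0, e1]; exact n2)])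
  obtain ⟨P, hP⟩ := aut_sl' (p := 7) (by norm_num) φ
  have := trace_conjSL2 P x
  rw [← hP, hφ, neg_apply', neg_apply', e0, e1] at this
  exact n3 this

/-- The field is a prime field. -/
theorem prime_of_ow {F : Type} [Field F] [Fintype F] (ho : Odd (Fintype.card F))
    (h : OW PSL(2, F)) : (Fintype.card F).Prime := by
  obtain ⟨r, hr⟩ := CharP.exists F
  obtain ⟨n, hp, hn⟩ := FiniteField.card F r
  have hr2 : r ≠ 2 := by
    rintro rfl
    rw [hn] at ho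
    exact (Nat.not_odd_iff_even.2 (even_two.pow_of_ne_zero n.ne_zero)) ho
  have h2 : (2 : F) ≠ 0 := fun e => hr2 ((Nat.prime_dvd_prime_iff_eq hp Nat.prime_two).1
    ((CharP.cast_eq_zero_iff F r 2).1 (by exact_mod_cast e)))
  have := Fact.mk hp
  let ν : Multiplicative F →* PSL(2, F) := MonoidHom.mk' (fun x => uu x.toAdd) fun x y => by
    rw [toAdd_mul, uu_add]
  have hm : ∀ x : F, uu x ∈ ν.range := fun x => ⟨Multiplicative.ofAdd x, rfl⟩
  have hpow : ∀ x : F, uu x ^ r = 1 := fun x => by rw [uu_pow]; simp [uu_zero]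
  have hU : EA r ν.range := ⟨by rintro _ ⟨x, rfl⟩; exact hpow _, by
    rintro _ ⟨x, rfl⟩ _ ⟨y, rfl⟩; rw [← map_mul, ← map_mul, mul_comm]⟩
  have hz : ∀ k : ℤ, uu (1 : F) ^ k = uu (k : F) := fun k => by
    have := map_zpow ν (Multiplicative.ofAdd 1) k
    change uu _ = uu _ ^ k at this
    simpa using this.symm
  have hsq : ∀ a : F, ∃ k : ℤ, a ^ 2 = k := by
    intro a
    by_contra hc
    have ha : a ≠ 0 := by rintro rfl; exact hc ⟨0, by simp⟩
    obtain ⟨l, hl, hl1, hl0⟩ := hU.exists_fn hp (W := zpowers (uu 1)) (zpowers_le.2 (hm 1))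
      (hm (a ^ 2)) (by
        rintro ⟨k, hk⟩
        exact hc ⟨k, (uu_inj ((hz k).symm.trans hk)).symm⟩)
    have hf : IsAut ν.range fun x => x * uu 1 ^ (l x).val := ⟨fun x hx =>
      mul_mem hx (pow_mem (hm 1) _), fun x hx y hy => by
        rw [hl x hx y hy, pow_val_add (hpow 1), mul_assoc, mul_assoc, ← mul_assoc y,
          hU.comm y hy _ (pow_mem (hm 1) _), mul_assoc], fun x hx e => by
        have h1 : x = (uu 1 ^ (l x).val)⁻¹ := eq_inv_of_mul_eq_one_left e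
        have h3 : l x = 0 := hl0 x (h1 ▸ inv_mem (pow_mem (mem_zpowers _) _))
        rwa [h3, ZMod.val_zero, pow_zero, mul_one] at e⟩
    let d : SL(2, F) := ⟨!![a, 0; 0, a⁻¹], by simp [det_fin_two, ha]⟩
    have hd : ∀ x, pr F d * uu x * (pr F d)⁻¹ = uu (a ^ 2 * x) := fun x => conj_upT rfl x
    obtain ⟨g', hg', e⟩ := h.na r hp hr2 _ hU _ hf (pr F d) (mem_normalizer_of_conj_mem (by
      rintro _ ⟨x, rfl⟩
      exact (hd x.toAdd).symm ▸ hm _))
    have e1 := e _ (hm 1)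
    have e2 := e _ (hm (a ^ 2))
    simp only [hd] at e1 e2
    rw [hl0 _ (mem_zpowers _), mul_one, hl1, ZMod.val_one, ZMod.val_zero, pow_zero, mul_one,
      pow_one, ← uu_add] at e1
    obtain ⟨c, hc'⟩ := conj_uu e1
    rw [hl1, ZMod.val_one, pow_one, ← uu_add, hc', uu_pow, ← uu_add] at e2
    rw [hc'] at e1
    have e3 := uu_inj e1
    have e4 := uu_inj e2
    obtain ⟨m, hm'⟩ := hp.odd_of_ne_two hr2
    have e5 : (2 * m + 1 : F) = 0 := by
      have := CharP.cast_eq_zero F r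
      rw [hm'] at this
      exact_mod_cast this
    refine hc ⟨(m + 1) * ((l (uu (a ^ 2 * a ^ 2))).val - 1), ?_⟩
    push_cast
    linear_combination (m + 1 : F) * e4 - (m + 1 : F) * (a ^ 2 + 1) * e3 - a ^ 2 * e5
  have hs : Function.Surjective (ZMod.castHom (dvd_refl r) F) := fun x => by
    obtain ⟨k, hk⟩ := hsq ((x + 1) / 2)
    obtain ⟨k', hk'⟩ := hsq ((x - 1) / 2)
    refine ⟨((k - k' : ℤ) : ZMod r), ?_⟩
    rw [map_intCast]
    push_cast
    rw [← hk, ← hk']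
    field_simp
    ring
  have h1 := Fintype.card_le_of_surjective _ hs
  rw [ZMod.card, hn] at h1
  have h3 : (n : ℕ) ≤ 1 := (Nat.pow_le_pow_iff_right hp.one_lt).1 (by rwa [pow_one])
  have h4 : (n : ℕ) = 1 := le_antisymm h3 n.pos
  rwa [hn, h4, pow_one]

end CfsgLib.Hom
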