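import Cfsg.Agent.Lib.Hom.CaseIIb
import Cfsg.Agent.Lib.H5AutOrbits

/-!
# Case II
-/

set_option autoImplicit false

namespace CfsgLib.Hom

open Subgroup Cfsg CfsgLib.FT CfsgLib.FT.BGN
open scoped commutatorElement

variable {G : Type*} [Group G] [Finite G] {p : ℕ} {E C : Subgroup G}

theorem zc (hp : p.Prime) (hG : Hm G) (hE : EA p E) (hm : Mx p E) (hC : IsSylowIn p C 𝐂(E))
    (hne : ∀ u ∈ E, u ≠ 1 → ∃ g ∈ 𝐍(E), g * u * g⁻¹ ∉ zpowers u) : C ⊓ 𝐂(C) ≤ E :=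
  zc' hp hG hE hm hC hne

theorem card_eq_sq (hp : p.Prime) (hG : Hm G) (hE : EA p E) (hm : Mx p E) (h : ¬ PV p E) :
    Nat.card E = p ^ 2 :=
  card_eq_sq' hp hG hE hm h

omit [Finite G] in
theorem eq_one_of_sq (hp : p.Prime) (hp2 : p ≠ 2) {x : G} {j : ℕ} (h : x ^ p ^ j = 1)
    (h2 : x ^ 2 = 1) : x = 1 :=
  orderOf_eq_one_iff.1 (Nat.eq_one_of_dvd_coprimes
    (((Nat.coprime_primes hp Nat.prime_two).2 hp2).pow_left j) (orderOf_dvd_of_pow_eq_one h)
    (orderOf_dvd_of_pow_eq_one h2))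

theorem comm_of_fpf {K : Subgroup G} {t : G} (ht : t * t ∈ 𝐂(K)) (hn : t ∈ 𝐍(K))
    (h : ∀ x ∈ K, t * x * t⁻¹ = x → x = 1) : K ≤ 𝐂(K) := by
  let φ : K →* K :=
    { toFun := fun k => ⟨t * k * t⁻¹, conj_mem_of_mem_normalizer hn k.2⟩
      map_one' := by simp
      map_mul' := fun a b => Subtype.ext (by simp) }
  have h1 : MonoidHom.FixedPointFree φ := fun k hk =>
    Subtype.ext (h k k.2 (congrArg Subtype.val hk))
  have h2 : Function.Involutive φ := fun k => Subtype.ext (by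
    change t * (t * k * t⁻¹) * t⁻¹ = k
    rw [← conj_eq_of_cent ht k.2]
    conv_lhs => rw [conj_eq_of_cent ht k.2]
    group)
  exact fun a ha => U4.mem_cent.2 fun b hb =>
    congrArg Subtype.val (h1.commute_all_of_involutive h2 ⟨b, hb⟩ ⟨a, ha⟩).eq

/-- In case II for odd `p` the `p`-elements of `C(E)` lie in `E`. -/
theorem mem_of_not_pv (hp : p.Prime) (hp2 : p ≠ 2) (hG : Hm G) (hE : EA p E) (hm : Mx p E)
    (h : ¬ PV p E) {x : G} (hx : x ∈ 𝐂(E)) {j : ℕ} (hj : x ^ p ^ j = 1) : x ∈ E := by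
  have := Fact.mk hp
  obtain ⟨C, hxC, hC⟩ := IsSylowIn.exists_ge (isPGroup_zpowers hp hj) (zpowers_le.2 hx)
  obtain ⟨h0, hh0, e0⟩ := exists_neg hp hE (hG.na E) h (card_eq_sq hp hG hE hm h)
  obtain ⟨h1, -, hh1, e1⟩ := exists_frat hp hC hh0
  have sq : ∀ {s : G}, (∀ v ∈ E, s * v * s⁻¹ = v⁻¹) → s * s ∈ 𝐂(E) := fun {s} hs =>
    mem_cent_of_conj fun v hv => by
      rw [show s * s * v * (s * s)⁻¹ = s * (s * v * s⁻¹) * s⁻¹ by group, hs v hv,
        hs _ (inv_mem hv), inv_inv]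
  obtain ⟨s, hs, ⟨i, hi⟩, e⟩ := exists_ppart Nat.prime_two (A := E) (k := h1) (n := 1)
    (by rw [pow_one, pow_two]; exact sq fun v hv => (e1 v hv).trans (e0 v hv))
  replace e : ∀ v ∈ E, s * v * s⁻¹ = v⁻¹ := fun v hv => ((e v hv).trans (e1 v hv)).trans (e0 v hv)
  replace hs := zpowers_le.2 hh1 hs
  have h2 := comm_of_fpf (cent_of_omega hp hp2 hC.isPGroup (mul_mem hs hs)
    (Nat.Coprime.coprime_dvd_left (orderOf_dvd_of_pow_eq_one (n := 2 ^ i)
      (by rw [(Commute.refl s).mul_pow, hi, one_mul]))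
      (((Nat.coprime_primes Nat.prime_two hp).2 hp2.symm).pow_left i))
    fun a ha e1 => conj_eq_of_cent (sq e) (hm a (hC.le ha) e1)) hs fun y hy ey => by
      obtain ⟨k, hk⟩ := exists_ppow hC.isPGroup hy
      induction k with
      | zero => simpa using hk
      | succ k ih =>
        have h3 := e _ (hm _ (hC.le (pow_mem hy (p ^ k))) (by rw [← pow_mul, ← pow_succ, hk]))
        rw [← conj_pow, ey] at h3
        exact ih (eq_one_of_sq hp hp2 (j := 1) (by rw [← pow_mul, ← pow_add, hk])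
          (by rw [pow_two, mul_eq_one_iff_eq_inv, ← h3]))
  have h3 := hxC (mem_zpowers x)
  exact zc hp hG hE hm hC (hne_of_not_pv hp hE (hG.na E) h) ⟨h3, h2 h3⟩

/-- An automorphism of `W⟨e⟩` fixing `W` pointwise. -/
theorem exists_isAut (hp : p.Prime) {W : Subgroup G} {e s : G} (he : e ∈ 𝐍(W)) (heW : e ∉ W)
    (hep : e ^ p = 1) (hs : s ∈ W) (hsW : s ∈ 𝐂(W)) (hes : (e * s) ^ p = 1) :
    ∃ f, IsAut (W ⊔ zpowers e) f ∧ (∀ w ∈ W, f w = w) ∧ f e = e * s := by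
  have := Fact.mk hp
  have ho : orderOf e = p := orderOf_eq_prime hep fun h => heW (h ▸ one_mem W)
  have hd : zpowers e ⊓ W = ⊥ := (U4.inf_eq_bot_or_le_of_card_prime
    (by rwa [Nat.card_zpowers, ho]) W).resolve_right fun h => heW (h (mem_zpowers e))
  let c : ℕ → G := fun i => (e ^ i)⁻¹ * (e * s) ^ i
  have hc : ∀ i, c i ∈ W ⊓ 𝐂(W) := fun i => by
    induction i with
    | zero => simp [c]
    | succ i ih =>
      have := mul_mem (conj_mem_of_mem_normalizer' (norm_inf he (norm_cent he)) ih) ⟨hs, hsW⟩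
      convert this using 1
      simp only [c, pow_succ]; group
  have hex : ∀ x ∈ W ⊔ zpowers e, ∃ i : ℕ, x * (e ^ i)⁻¹ ∈ W := fun x hx => by
    obtain ⟨w, hw, a, ha, rfl⟩ := (mem_sup_iff_of_le_normalizer' (zpowers_le.2 he)).1 hx
    obtain ⟨i, rfl⟩ := mem_powers_iff_mem_zpowers.2 ha
    exact ⟨i, by simpa using hw⟩
  choose! d hd' using hex
  have hf : ∀ x ∈ W ⊔ zpowers e, ∀ i : ℕ, x * (e ^ i)⁻¹ ∈ W → x * c (d x) = x * c i :=
    fun x hx i hi => by
      have h1 : e ^ d x = e ^ i := mul_inv_eq_one.1 (U4.eq_one_of_mem_inf hd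
        (mul_mem (pow_mem (mem_zpowers e) _) (inv_mem (pow_mem (mem_zpowers e) _)))
        (by convert mul_mem (inv_mem (hd' x hx)) hi using 1; group))
      have h2 := pow_eq_pow_iff_modEq.1 h1
      rw [ho] at h2
      simp only [c]
      rw [h1, pow_eq_pow_mod _ hes, h2, ← pow_eq_pow_mod _ hes]
  have h0 : ∀ w ∈ W, w * c (d w) = w := fun w hw => by
    rw [hf w (mem_sup_left hw) 0 (by simpa using hw)]; simp [c]
  refine ⟨fun x => x * c (d x), ⟨fun a ha => mul_mem ha (mem_sup_left (hc _).1),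
    fun a ha b hb => ?_, fun a ha h => ?_⟩, h0, ?_⟩
  · have h1 := hd' a ha
    have h2 := hd' b hb
    rw [hf _ (mul_mem ha hb) (d a + d b) (by
      convert mul_mem h1 (conj_mem_of_mem_normalizer (pow_mem he (d a)) h2) using 1
      rw [pow_add]; group)]
    have h3 := U4.mem_cent.1 (hc (d a)).2 _ h2
    calc a * b * c (d a + d b)
        = a * (b * (e ^ d b)⁻¹ * c (d a)) * e ^ d b * c (d b) := by
          simp only [c]; rw [pow_add (e * s), add_comm, pow_add]; group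
      _ = _ := by rw [h3]; group
  · rwa [h0 a (eq_inv_of_mul_eq_one_left h ▸ inv_mem (hc _).1)] at h
  · exact (hf e (mem_sup_right (mem_zpowers e)) 1 (by simp)).trans (by simp [c])

theorem norm_sup {A : Subgroup G} {b g : G} (h1 : ∀ a ∈ A, g * a * g⁻¹ ∈ A ⊔ zpowers b)
    (h2 : g * b * g⁻¹ ∈ A ⊔ zpowers b) : g ∈ 𝐍((A ⊔ zpowers b : Subgroup G)) :=
  mem_normalizer_of_conj_mem fun _ hx =>
    sup_le (c := (A ⊔ zpowers b).comap (MulAut.conj g).toMonoidHom) h1 (zpowers_le.2 h2) hx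

omit [Finite G] in
theorem conj_zpowers_mem {A : Subgroup G} {b g : G} (h : g * b * g⁻¹ ∈ A) :
    ∀ a ∈ zpowers b, g * a * g⁻¹ ∈ A :=
  zpowers_le (H := A.comap (MulAut.conj g).toMonoidHom).2 h

theorem c1_odd (hp : p.Prime) (hp2 : p ≠ 2) (hG : Hm G) : C1 p G := by
  have := Fact.mk hp
  by_contra hc
  have npv : ∀ {E : Subgroup G}, EA p E → Mx p E → ¬ PV p E := fun hE hm h =>
    hc (c1_of_pv hp hE hm h)
  obtain ⟨E, -, hE, hm⟩ := exists_mx (EA.zpowers (one_pow p : (1 : G) ^ p = 1))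
  have h := npv hE hm
  have hN := hG.na E
  obtain ⟨u, hu, n1⟩ := exists_not_mem_of_card (W := ⊥) (E := E) (by
    rw [card_bot]; exact hp.one_lt.trans (lt_card_of_not_pv hp hE h))
  obtain ⟨e, he, n2⟩ := exists_not_mem_of_card
    ((card_zpowers_le hp (hE.pow u hu)).trans_lt (lt_card_of_not_pv hp hE h))
  obtain ⟨l, hl, l1, l0⟩ := hE.exists_fn hp (zpowers_le.2 hu) he n2
  replace l0 := l0 u (mem_zpowers u)
  obtain ⟨P, hEP, hP⟩ := IsSylowIn.exists_ge (H := tvGroup hE hl) hE.isPGroup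
    fun c hc => ⟨1, tv_one hl (hE.le_cent hc)⟩
  have hPE : ∀ x ∈ P, x ∈ 𝐂(E) → x ∈ E := fun x hx hx' => by
    obtain ⟨j, hj⟩ := exists_ppow hP.isPGroup hx
    exact mem_of_not_pv hp hp2 hG hE hm h hx' hj
  have neg : ∀ {s x w : G}, (∀ v ∈ E, s * v * s⁻¹ = v⁻¹) → Tv E l x w →
      Tv E l (s * x * s⁻¹) w := fun {s x w} hs hx => ⟨hx.1, fun v hv => by
    have h1 : s⁻¹ * v * s = v⁻¹ := by
      have := hs _ (inv_mem hv)
      rw [inv_inv] at this
      conv_lhs => rw [← this]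
      group
    rw [show s * x * s⁻¹ * v * (s * x * s⁻¹)⁻¹ = s * (x * (s⁻¹ * v * s) * x⁻¹) * s⁻¹ by group, h1,
      ← conj_inv, hs _ (inv_mem (conj_mem_of_mem_normalizer hx.norm hv)), inv_inv, hx.2 v hv]⟩
  obtain ⟨s, hs, es⟩ : ∃ s ∈ 𝐍(P), ∀ v ∈ E, s * v * s⁻¹ = v⁻¹ := by
    obtain ⟨s, -, es⟩ := exists_neg hp hE hN h (card_eq_sq hp hG hE hm h)
    obtain ⟨k, ⟨w, hk⟩, hs⟩ := hP.frattini_elem (g := s)
      (mem_normalizer_of_conj_mem fun x ⟨w, hx⟩ => ⟨w, neg es hx⟩)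
    obtain ⟨y, hy, ey⟩ := Tv.exists_mem hp hE hl hP (hk.inv hl)
    refine ⟨y * (k * s), mul_mem (le_normalizer hy) hs, fun v hv => ?_⟩
    have := (ey.mul hE hl hk).2 _ (inv_mem hv)
    rw [inv_mul_cancel, one_pow, mul_one] at this
    rw [← this, ← es v hv]
    group
  obtain ⟨t, ht, et, hst⟩ : ∃ t ∈ P, Tv E l t u ∧ s * t * s⁻¹ = t := by
    obtain ⟨t0, -, e0⟩ := exists_transv hp hE hN h hl hu l0
    obtain ⟨t, ht, et⟩ := Tv.exists_mem hp hE hl hP ⟨⟨hu, l0⟩, e0⟩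
    have h1 := hPE _ (mul_mem (inv_mem ht) (conj_mem_of_mem_normalizer hs ht))
      (mem_cent_of_conj fun v hv => by
        rw [((et.inv hl).mul hE hl (neg es et)).2 v hv, inv_mul_cancel, one_pow, mul_one])
    obtain ⟨m, hm⟩ := hp.odd_of_ne_two hp2
    have h2 := pow_mem h1 (m + 1)
    have h3 := hE.pow _ h1
    generalize hf : t⁻¹ * (s * t * s⁻¹) = f at h1 h2 h3
    refine ⟨t * f ^ (m + 1), mul_mem ht (hEP h2),
      mul_one u ▸ et.mul hE hl (tv_one hl (hE.le_cent h2)), ?_⟩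
    rw [← _root_.conj_mul, es _ h2, show s * t * s⁻¹ = t * f by rw [← hf]; group, mul_assoc,
      mul_right_inj, mul_inv_eq_iff_eq_mul, ← pow_add, show m + 1 + (m + 1) = p + 1 by omega,
      pow_succ, h3, one_mul]
  have hte : t * e * t⁻¹ = e * u := by rw [et.2 e he, l1, ZMod.val_one, pow_one]
  have htu := et.fix hu l0
  have htp : t ^ p = 1 := by
    have h1 := hPE _ (pow_mem ht p) (mem_cent_of_conj fun v hv => by
      rw [pow_conj_of_act (by rw [← conj_pow, htu]) (et.2 v hv), hE.pow _ (pow_mem hu _), mul_one])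
    have h2 := es _ h1
    rw [← conj_pow, hst] at h2
    exact eq_one_of_sq hp hp2 (j := 1) (by rw [pow_one, hE.pow _ h1])
      (by rw [pow_two, mul_eq_one_iff_eq_inv, ← h2])
  have htE : t ^ 2 ∉ E := fun h => by
    have h1 := pow_conj_of_act htu hte 2
    rw [conj_eq_of_cent (hE.le_cent h) he, left_eq_mul] at h1
    exact n1 (eq_one_of_sq hp hp2 (j := 1) (by rw [pow_one, hE.pow u hu]) h1)
  have hut : Commute u t := (mul_inv_eq_iff_eq_mul.1 htu).symm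
  have hue : Commute u e := hE.comm u hu e he
  have hW : EA p (zpowers u ⊔ zpowers t) := (EA.zpowers (hE.pow u hu)).sup (EA.zpowers htp)
    (zpowers_le.2 (by rw [U4.cent_zpowers]; exact U4.mem_cent1'.2 hut))
  have huW : u ∈ zpowers u ⊔ zpowers t := mem_sup_left (mem_zpowers u)
  have htW : t ∈ zpowers u ⊔ zpowers t := mem_sup_right (mem_zpowers t)
  have hWm : Mx p (zpowers u ⊔ zpowers t) := by
    obtain ⟨W, h1, h2, h3⟩ := exists_mx hW
    rwa [eq_of_le_of_card_ge h1 (by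
      rw [card_eq_sq hp hG h2 h3 (npv h2 h3), PGrp.card_sup_zpowers_of_commute
        (orderOf_eq_prime (hE.pow u hu) n1) htp
        (fun h => htE (pow_mem (zpowers_le.2 hu h) 2)) hut])]
  have het : e⁻¹ * t * e = u * t := by
    rw [mul_assoc, mul_inv_eq_iff_eq_mul.1 hte]; group
  have heN : e ∈ 𝐍((zpowers u ⊔ zpowers t : Subgroup G)) := inv_mem_iff.1
    (norm_sup (conj_zpowers_mem (by rwa [inv_inv, mul_assoc, hue.eq, inv_mul_cancel_left]))
      (by rw [inv_inv, het]; exact mul_mem huW htW))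
  have hsN : s ∈ 𝐍((zpowers u ⊔ zpowers t : Subgroup G)) :=
    norm_sup (conj_zpowers_mem (by rw [es u hu]; exact inv_mem huW)) (by rwa [hst])
  have hc1 : ⁅t, e⁆ = u := by
    rw [commutatorElement_def, hte, ← hue.eq, mul_inv_cancel_right]
  obtain ⟨f, hf, f1, f2⟩ := exists_isAut hp heN (fun h => n1 (by
      rwa [← hW.comm _ h _ htW, mul_inv_cancel_right, left_eq_mul] at hte))
    (hE.pow e he) htW (hW.le_cent htW) (by
      rw [PGrp.mul_pow_prime_eq_of_odd (hp.odd_of_ne_two hp2) (hc1 ▸ hue) (hc1 ▸ hut)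
        (hc1 ▸ hE.pow u hu), hE.pow e he, htp, one_mul])
  have heA := (mem_sup_right (mem_zpowers e) : e ∈ zpowers u ⊔ zpowers t ⊔ zpowers e)
  obtain ⟨g, -, eg⟩ := hG.na _ f hf s (norm_sup
    (fun x hx => mem_sup_left (conj_mem_of_mem_normalizer hsN hx))
    (by rw [es e he]; exact inv_mem heA))
  have hk : s⁻¹ * g ∈ 𝐂((zpowers u ⊔ zpowers t : Subgroup G)) := mem_cent_of_conj fun w hw => by
    have := eg w (mem_sup_left hw)
    rw [f1 w hw, f1 _ (conj_mem_of_mem_normalizer hsN hw)] at this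
    rw [show s⁻¹ * g * w * (s⁻¹ * g)⁻¹ = s⁻¹ * (g * w * g⁻¹) * s by group, this]
    group
  have hke : s⁻¹ * g * e * (s⁻¹ * g)⁻¹ = e * ((u * t)⁻¹ * t⁻¹) := by
    have h1 := eg e heA
    rw [es e he, hf.inv heA, f2] at h1
    have h2 := conj_eq_of_cent hk htW
    calc _ = s⁻¹ * (g * (e * t) * g⁻¹) * s * (s⁻¹ * g * t * (s⁻¹ * g)⁻¹)⁻¹ := by group
      _ = s⁻¹ * ((s * t * s⁻¹)⁻¹ * (s * e * s⁻¹)) * s * t⁻¹ := by
          rw [h1, h2, hst, es e he, mul_inv_rev]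
      _ = _ := by rw [← het]; group
  have hw := mul_mem (inv_mem (mul_mem huW htW)) (inv_mem htW)
  obtain ⟨v, hv, ⟨j, hj⟩, ev⟩ := exists_ppart hp (A := zpowers e) (k := s⁻¹ * g) (n := 1) (by
    rw [U4.cent_zpowers, pow_one]
    exact U4.mem_cent1_of_conj_eq (by
      rw [pow_conj_of_act (conj_eq_of_cent hk hw) hke, hW.pow _ hw, mul_one]))
  obtain ⟨w, ew⟩ := hP.le (sup_le (zpowers_le.2 (hEP hu)) (zpowers_le.2 ht)
    (mem_of_not_pv hp hp2 hG hW hWm (npv hW hWm) (zpowers_le.2 hk hv) hj))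
  have h1 := ev e (mem_zpowers e)
  rw [hke, ew.2 e he, mul_right_inj] at h1
  have h2 := mul_mem (inv_mem hu) (inv_mem (h1 ▸ pow_mem ew.1.1 (l e).val))
  refine htE ?_
  convert h2 using 1
  rw [mul_inv_rev, inv_inv, inv_inv, ← mul_assoc, ← mul_assoc, mul_assoc _ t, ← hut.eq, pow_two]
  group

theorem Hm.ow (hG : Hm G) : OW G :=
  ⟨fun _ hp hp2 => c1_odd hp hp2 hG, fun _ _ _ V _ => hG.na V, fun _ _ _ e => hG.cj e⟩

end CfsgLib.Hom
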