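import Cfsg.Agent.Lib.Hom.Odd

/-!
# Case II: tools and the centre of a Sylow subgroup of `C(E)`
-/

set_option autoImplicit false

namespace CfsgLib.Hom

open Subgroup Cfsg CfsgLib.FT CfsgLib.FT.BGN

variable {G : Type*} [Group G] [Finite G] {p : ℕ} {A E C : Subgroup G}

omit [Finite G] in
theorem conj_eq_of_cent {k a : G} (hk : k ∈ 𝐂(A)) (ha : a ∈ A) : k * a * k⁻¹ = a := by
  rw [← U4.mem_cent.1 hk a ha, mul_inv_cancel_right]

omit [Finite G] in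
theorem mem_cent_of_conj {k : G} (h : ∀ a ∈ A, k * a * k⁻¹ = a) : k ∈ 𝐂(A) :=
  U4.mem_cent.2 fun a ha => (mul_inv_eq_iff_eq_mul.1 (h a ha)).symm

theorem norm_cent {g : G} (hg : g ∈ 𝐍(A)) : g ∈ 𝐍(𝐂(A)) :=
  mem_normalizer_of_conj_mem fun x hx => U4.mem_cent.2 fun a ha => by
    have := U4.mem_cent.1 hx _ (conj_mem_of_mem_normalizer' hg ha)
    calc a * (g * x * g⁻¹) = g * (g⁻¹ * a * g * x) * g⁻¹ := by group
      _ = _ := by rw [this]; group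

theorem norm_inf {B : Subgroup G} {g : G} (h1 : g ∈ 𝐍(A)) (h2 : g ∈ 𝐍(B)) :
    g ∈ 𝐍((A ⊓ B : Subgroup G)) :=
  mem_normalizer_of_conj_mem fun _ hx =>
    ⟨conj_mem_of_mem_normalizer h1 hx.1, conj_mem_of_mem_normalizer h2 hx.2⟩

theorem isPGroup_zpowers (hp : p.Prime) {g : G} {j : ℕ} (ho : g ^ p ^ j = 1) :
    IsPGroup p (zpowers g) := by
  have := Fact.mk hp
  obtain ⟨i, -, hi⟩ := (Nat.dvd_prime_pow hp).1 (orderOf_dvd_of_pow_eq_one ho)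
  exact isPGroup_zpowers_iff.2 ⟨i, hi⟩

omit [Finite G] in
theorem exists_ppow {P : Subgroup G} (hP : IsPGroup p P) {x : G} (hx : x ∈ P) :
    ∃ j, x ^ p ^ j = 1 := by
  obtain ⟨j, hj⟩ := hP ⟨x, hx⟩
  exact ⟨j, congrArg Subtype.val hj⟩

/-- A normal subgroup containing a Sylow `p`-subgroup contains all `p`-elements. -/
theorem mem_of_ppow_norm (hp : p.Prime) {L N : Subgroup G} (hC : IsSylowIn p C L) (hN : C ≤ N)
    (hL : L ≤ 𝐍(N)) {x : G} (hx : x ∈ L) {j : ℕ} (ho : x ^ p ^ j = 1) : x ∈ N := by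
  have := Fact.mk hp
  obtain ⟨c, hc, h⟩ := hC.exists_conj_le (isPGroup_zpowers hp ho) (zpowers_le.2 hx)
  simpa [mul_assoc] using
    conj_mem_of_mem_normalizer' (hL hc) (hN (h (conj_mem_map_conj (mem_zpowers x))))

omit [Finite G] in
theorem mem_zpowers_symm (hp : p.Prime) {u w : G} (hw : w ^ p = 1) (hu : u ≠ 1)
    (h : u ∈ zpowers w) : w ∈ zpowers u := by
  have := Fact.mk hp
  have h1 : w ≠ 1 := by rintro rfl; exact hu (by simpa using h)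
  rw [U4.zpowers_eq_of_card_prime (X := zpowers w)
    (by rwa [Nat.card_zpowers, orderOf_eq_prime hw h1]) h hu]
  exact mem_zpowers w

theorem EA.le_sylow (hp : p.Prime) (hE : EA p E) (hC : IsSylowIn p C 𝐂(E)) : E ≤ C :=
  fun e he => mem_of_ppow hp hC (hE.le_cent he)
    (U4.cent_le_norm C (le_centralizer_iff.1 hC.le he)) (j := 1) (by rw [pow_one, hE.pow e he])

/-- The Frattini argument. -/
theorem exists_frat (hp : p.Prime) (hC : IsSylowIn p C 𝐂(E)) {g : G} (hg : g ∈ 𝐍(E)) :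
    ∃ g' ∈ 𝐍(E), g' ∈ 𝐍(C) ∧ ∀ e ∈ E, g' * e * g'⁻¹ = g * e * g⁻¹ := by
  have := Fact.mk hp
  obtain ⟨k, hk, h⟩ := hC.frattini_elem (norm_cent hg)
  refine ⟨k * g, mul_mem (U4.cent_le_norm E hk) hg, h, fun e he => ?_⟩
  rw [← conj_eq_of_cent hk (conj_mem_of_mem_normalizer hg he)]
  group

omit [Finite G] in
theorem pow_conj_of_act {k a h : G} (hk : k * h * k⁻¹ = h) (e : k * a * k⁻¹ = a * h) (n : ℕ) :
    k ^ n * a * (k ^ n)⁻¹ = a * h ^ n := by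
  induction n with
  | zero => simp
  | succ n ih =>
    rw [pow_succ' k, show k * k ^ n * a * (k * k ^ n)⁻¹ = k * (k ^ n * a * (k ^ n)⁻¹) * k⁻¹ by group,
      ih, ← _root_.conj_mul, e, ← conj_pow, hk, pow_succ', mul_assoc]

/-- An element acting as `a ↦ a h(a)` can be replaced by a `p`-element. -/
theorem exists_ppart_act (hp : p.Prime) (hE : ∀ e ∈ E, e ^ p = 1) {k : G} (hk : k ∈ 𝐂(E))
    {h : G → G} (hh : ∀ a ∈ A, h a ∈ E) (e : ∀ a ∈ A, k * a * k⁻¹ = a * h a) :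
    ∃ u ∈ zpowers k, (∃ j, u ^ p ^ j = 1) ∧ ∀ a ∈ A, u * a * u⁻¹ = a * h a := by
  obtain ⟨u, hu, h1, h2⟩ := exists_ppart hp (A := A) (k := k) (n := 1)
    (mem_cent_of_conj fun a ha => by
      rw [pow_conj_of_act (conj_eq_of_cent hk (hh a ha)) (e a ha), pow_one, hE _ (hh a ha), mul_one])
  exact ⟨u, hu, h1, fun a ha => (h2 a ha).trans (e a ha)⟩

/-- `NA.cen` realized by a `p`-element. -/
theorem NA.cen_p (hp : p.Prime) (h : NA A) (hE : E ≤ A) (hEA : E ≤ 𝐂(A))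
    (hEp : ∀ e ∈ E, e ^ p = 1) {f : G → G} (hf : ∀ a ∈ A, f a ∈ E)
    (hm : ∀ a ∈ A, ∀ b ∈ A, f (a * b) = f a * f b) (h0 : ∀ e ∈ E, f e = 1) {g : G}
    (hg : g ∈ 𝐍(A)) (hgE : g ∈ 𝐍(E)) : ∃ k ∈ 𝐍(A), (∃ j, k ^ p ^ j = 1) ∧
      ∀ a ∈ A, k * a * k⁻¹ = a * (f a * (g * f (g⁻¹ * a * g) * g⁻¹)⁻¹) := by
  obtain ⟨k, hk, e⟩ := h.cen hE hEA hf hm h0 hg hgE
  obtain ⟨u, hu, h1, h2⟩ := exists_ppart_act hp hEp (k := k) (mem_cent_of_conj fun a ha => by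
      rw [e a (hE ha), h0 a ha, h0 _ (conj_mem_of_mem_normalizer' hgE ha)]; simp)
    (fun a ha => mul_mem (hf a ha) (inv_mem (conj_mem_of_mem_normalizer hgE
      (hf _ (conj_mem_of_mem_normalizer' hg ha))))) e
  exact ⟨u, zpowers_le.2 hk hu, h1, h2⟩

theorem zc' (hp : p.Prime) (hG : Hm G) (hE : EA p E) (hm : Mx p E) (hC : IsSylowIn p C 𝐂(E))
    (hne : ∀ u ∈ E, u ≠ 1 → ∃ g ∈ 𝐍(E), g * u * g⁻¹ ∉ zpowers u) : C ⊓ 𝐂(C) ≤ E := by
  have := Fact.mk hp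
  have hEC := hE.le_sylow hp hC
  have hEZ : E ≤ 𝐂(C) := le_centralizer_iff.1 hC.le
  suffices key : ∀ d ∈ C ⊓ 𝐂(C), d ^ p ∈ E → d ∈ E by
    intro d hd
    obtain ⟨k, hk⟩ := exists_ppow hC.isPGroup hd.1
    replace hk : d ^ p ^ k ∈ E := hk ▸ one_mem E
    induction k with
    | zero => simpa using hk
    | succ k ih => exact ih (key _ (pow_mem hd _) (by rwa [← pow_mul, ← pow_succ]))
  intro d hd hu
  by_contra hdE
  have hu1 : d ^ p ≠ 1 := fun e => hdE (hm d (hC.le hd.1) e)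
  obtain ⟨g0, hg0, hn⟩ := hne _ hu hu1
  obtain ⟨g, hgE, hgC, hg⟩ := exists_frat hp hC hg0
  rw [← hg _ hu] at hn
  have hw := conj_mem_of_mem_normalizer hgE hu
  obtain ⟨l, hl, h1, h2⟩ := hE.exists_fn hp (zpowers_le.2 hw) hu
    fun h => hn (mem_zpowers_symm hp (hE.pow _ hw) hu1 h)
  have hc : ∀ a ∈ C ⊓ 𝐂(C), ∀ b ∈ C ⊓ 𝐂(C), Commute a b := fun a ha b hb =>
    U4.mem_cent.1 hb.2 a ha.1
  let A : Subgroup G :=
    { carrier := {x | x ∈ C ⊓ 𝐂(C) ∧ x ^ p ∈ E}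
      one_mem' := ⟨one_mem _, by simp⟩
      mul_mem' := fun {a b} ha hb => ⟨mul_mem ha.1 hb.1, by
        rw [(hc a ha.1 b hb.1).mul_pow]; exact mul_mem ha.2 hb.2⟩
      inv_mem' := fun {a} ha => ⟨inv_mem ha.1, by rw [inv_pow]; exact inv_mem ha.2⟩ }
  have hEA : E ≤ A := fun e he => ⟨⟨hEC he, hEZ he⟩, pow_mem he p⟩
  have hCA : C ≤ 𝐂(A) := fun c hc => U4.mem_cent.2 fun a ha => (U4.mem_cent.1 ha.1.2 c hc).symm
  have hgA : g ∈ 𝐍(A) := mem_normalizer_of_conj_mem fun a ha =>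
    ⟨conj_mem_of_mem_normalizer (norm_inf hgC (norm_cent hgC)) ha.1, by
      rw [conj_pow]; exact conj_mem_of_mem_normalizer hgE ha.2⟩
  obtain ⟨k, hk, ⟨j, hj⟩, e⟩ := (hG.na A).cen_p hp hEA (hEC.trans hCA) hE.pow
    (f := fun x => (d ^ p) ^ (l (x ^ p)).val) (fun _ _ => pow_mem hu _)
    (fun a ha b hb => by
      rw [(hc a ha.1 b hb.1).mul_pow, hl _ ha.2 _ hb.2, pow_val_add (hE.pow _ hu)])
    (fun e he => by rw [hE.pow e he, hl.one]; simp) (inv_mem hgA) (inv_mem hgE)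
  have hkE : k ∈ 𝐂(E) := mem_cent_of_conj fun a ha => by
    rw [e a (hEA ha), hE.pow a ha, hE.pow _ (conj_mem_of_mem_normalizer' (inv_mem hgE) ha), hl.one]
    simp
  have hkA : k ∈ 𝐂(A) := mem_of_ppow_norm hp
    (hC.mono (le_inf hC.le (hCA.trans (U4.cent_le_norm A))) inf_le_left) hCA
    (fun x hx => norm_cent hx.2) ⟨hkE, hk⟩ hj
  have e1 := e d ⟨hd, hu⟩
  rw [conj_eq_of_cent hkA ⟨hd, hu⟩, inv_inv, conj_pow, h1, h2 _ (mem_zpowers _),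
    ZMod.val_one] at e1
  exact hu1 (by simpa using e1)

end CfsgLib.Hom
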