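import Cfsg.Agent.Lib.Hom.CaseIIa

/-!
# Case II: the rank is two
-/

set_option autoImplicit false

namespace CfsgLib.Hom

open Subgroup Cfsg CfsgLib.FT CfsgLib.FT.BGN

variable {G : Type*} [Group G] [Finite G] {p : ℕ} {A E C : Subgroup G}

theorem exists_not_mem_of_card {W : Subgroup G} (h : Nat.card W < Nat.card E) : ∃ a ∈ E, a ∉ W := by
  by_contra hc
  push Not at hc
  exact absurd (card_le_of_le hc) h.not_ge

omit [Finite G] in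
theorem card_zpowers_le (hp : p.Prime) {u : G} (h : u ^ p = 1) : Nat.card (zpowers u) ≤ p := by
  rw [Nat.card_zpowers]
  exact orderOf_le_of_pow_eq_one hp.pos h

omit [Finite G] in
theorem eq_zero_of_pow_val (hp : p.Prime) {u : G} (h : u ^ p = 1) (h1 : u ≠ 1) {c : ZMod p}
    (e : u ^ c.val = 1) : c = 0 := by
  have := Fact.mk hp
  have h2 := orderOf_dvd_of_pow_eq_one e
  rw [orderOf_eq_prime h h1] at h2
  exact (ZMod.val_eq_zero c).1 (Nat.eq_zero_of_dvd_of_lt h2 (ZMod.val_lt c))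

theorem lt_card_of_not_pv (hp : p.Prime) (hE : EA p E) (h : ¬ PV p E) : p < Nat.card E := by
  have := Fact.mk hp
  by_contra hc
  exact h fun g hg k e => le_centralizer_of_card_le_prime (isPGroup_zpowers hp e) hE.isPGroup
    (zpowers_le.2 hg) (not_lt.1 hc) (mem_zpowers g)

theorem hne_of_not_pv (hp : p.Prime) (hE : EA p E) (hN : NA E) (h : ¬ PV p E) :
    ∀ u ∈ E, u ≠ 1 → ∃ g ∈ 𝐍(E), g * u * g⁻¹ ∉ zpowers u := fun u hu h1 => by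
  have := Fact.mk hp
  obtain ⟨w, hw, hwu⟩ := exists_not_mem_of_card
    ((card_zpowers_le hp (hE.pow u hu)).trans_lt (lt_card_of_not_pv hp hE h))
  obtain ⟨l, hl, l1, l0⟩ := hE.exists_fn hp (zpowers_le.2 hw) hu
    fun h => hwu (mem_zpowers_symm hp (hE.pow w hw) h1 h)
  obtain ⟨t, ht, e⟩ := exists_transv hp hE hN h hl hw (l0 w (mem_zpowers w))
  refine ⟨t, ht, fun h => hwu ?_⟩
  rw [e u hu, l1, ZMod.val_one, pow_one] at h
  exact (mul_mem_cancel_left (mem_zpowers u)).1 h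

section Transv

variable (hp : p.Prime) (hE : EA p E) {ψ : G → ZMod p} (hψ : Fn p E ψ)

/-- The kernel of a functional. -/
def Fn.ker (hψ : Fn p E ψ) : Subgroup G where
  carrier := {v | v ∈ E ∧ ψ v = 0}
  one_mem' := ⟨one_mem _, hψ.one⟩
  mul_mem' := fun {a b} ha hb => ⟨mul_mem ha.1 hb.1, by rw [hψ a ha.1 b hb.1, ha.2, hb.2, add_zero]⟩
  inv_mem' := fun {a} ha => ⟨inv_mem ha.1, by rw [hψ.inv ha.1, ha.2, neg_zero]⟩

/-- `x` acts on `E` as the transvection `v ↦ v w^ψ(v)`. -/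
def Tv (E : Subgroup G) (ψ : G → ZMod p) (x w : G) : Prop :=
  (w ∈ E ∧ ψ w = 0) ∧ ∀ v ∈ E, x * v * x⁻¹ = v * w ^ (ψ v).val

omit [Finite G] in
theorem Tv.fix {x w v : G} (h : Tv E ψ x w) (hv : v ∈ E) (h0 : ψ v = 0) : x * v * x⁻¹ = v := by
  rw [h.2 v hv, h0]; simp

omit [Finite G] in
include hE hψ in
theorem Tv.mul {x w y w' : G} (h : Tv E ψ x w) (h' : Tv E ψ y w') : Tv E ψ (x * y) (w * w') := by
  refine ⟨hψ.ker.mul_mem h.1 h'.1, fun v hv => ?_⟩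
  rw [show x * y * v * (x * y)⁻¹ = x * (y * v * y⁻¹) * x⁻¹ by group, h'.2 v hv,
    ← _root_.conj_mul, h.2 v hv, ← conj_pow, h.fix h'.1.1 h'.1.2,
    Commute.mul_pow (hE.comm _ h.1.1 _ h'.1.1), mul_assoc]

omit [Finite G] in
include hψ in
theorem Tv.inv {x w : G} (h : Tv E ψ x w) : Tv E ψ x⁻¹ w⁻¹ := by
  refine ⟨hψ.ker.inv_mem h.1, fun v hv => ?_⟩
  have h1 := hψ.ker.pow_mem (hψ.ker.inv_mem h.1) (ψ v).val
  have h2 : x * (v * w⁻¹ ^ (ψ v).val) * x⁻¹ = v := by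
    rw [← _root_.conj_mul, h.2 v hv, h.fix h1.1 h1.2, inv_pow, mul_inv_cancel_right]
  conv_lhs => rw [← h2]
  group

omit [Finite G] in
include hψ in
theorem Tv.fn {x w v : G} (h : Tv E ψ x w) (hv : v ∈ E) : ψ (x * v * x⁻¹) = ψ v := by
  rw [h.2 v hv, hψ v hv _ (pow_mem h.1.1 _), (hψ.ker.pow_mem h.1 _).2, add_zero]

theorem Tv.norm {x w : G} (h : Tv E ψ x w) : x ∈ 𝐍(E) :=
  mem_normalizer_of_conj_mem fun v hv => h.2 v hv ▸ mul_mem hv (pow_mem h.1.1 _)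

omit [Finite G] in
theorem Tv.conj {x w g : G} (h : Tv E ψ x w) (hg : g ∈ 𝐍(E))
    (e : ∀ v ∈ E, ψ (g * v * g⁻¹) = ψ v) : Tv E ψ (g * x * g⁻¹) (g * w * g⁻¹) := by
  refine ⟨⟨conj_mem_of_mem_normalizer hg h.1.1, (e w h.1.1).trans h.1.2⟩, fun v hv => ?_⟩
  have h1 := conj_mem_of_mem_normalizer' hg hv
  have h2 := e _ h1
  rw [show g * (g⁻¹ * v * g) * g⁻¹ = v by group] at h2
  rw [show g * x * g⁻¹ * v * (g * x * g⁻¹)⁻¹ = g * (x * (g⁻¹ * v * g) * x⁻¹) * g⁻¹ by group,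
    h.2 _ h1, h2, conj_pow]
  group

/-- The preimage of the group of transvections with axis `ker ψ`. -/
def tvGroup (hE : EA p E) (hψ : Fn p E ψ) : Subgroup G where
  carrier := {x | ∃ w, Tv E ψ x w}
  one_mem' := ⟨1, hψ.ker.one_mem, by simp⟩
  mul_mem' := fun ⟨_, h⟩ ⟨_, h'⟩ => ⟨_, h.mul hE hψ h'⟩
  inv_mem' := fun ⟨_, h⟩ => ⟨_, h.inv hψ⟩

include hp in
theorem Tv.exists_mem {Q : Subgroup G} (hQ : IsSylowIn p Q (tvGroup hE hψ)) {t w : G}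
    (h : Tv E ψ t w) : ∃ x ∈ Q, Tv E ψ x w := by
  have := Fact.mk hp
  obtain ⟨u, -, ⟨j, hj⟩, hu⟩ := exists_ppart_act hp (E := hψ.ker) (fun e he => hE.pow e he.1)
    (mem_cent_of_conj fun a ha => h.fix ha.1 ha.2) (fun a _ => hψ.ker.pow_mem h.1 _) h.2
  have hu' : Tv E ψ u w := ⟨h.1, hu⟩
  obtain ⟨r, ⟨w', hr⟩, hh⟩ := hQ.exists_conj_le (isPGroup_zpowers hp hj) (zpowers_le.2 ⟨w, hu'⟩)
  exact ⟨_, hh (conj_mem_map_conj (mem_zpowers u)),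
    hr.fix h.1.1 h.1.2 ▸ hu'.conj hr.norm fun v => hr.fn hψ⟩

omit [Finite G] in
include hψ in
theorem tv_one {c : G} (hc : c ∈ 𝐂(E)) : Tv E ψ c 1 :=
  ⟨hψ.ker.one_mem, fun v hv => by rw [conj_eq_of_cent hc hv]; simp⟩

end Transv

theorem not_cube_le (hp : p.Prime) (hG : Hm G) (hE : EA p E) (hm : Mx p E) (h : ¬ PV p E) :
    ¬ p ^ 2 < Nat.card E := fun hc => by
  have := Fact.mk hp
  have hN := hG.na E
  obtain ⟨h1, hh1, n1⟩ := exists_not_mem_of_card (W := ⊥) (E := E) (by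
    rw [card_bot]; exact hp.one_lt.trans (lt_card_of_not_pv hp hE h))
  obtain ⟨h2, hh2, n2⟩ := exists_not_mem_of_card
    ((card_zpowers_le hp (hE.pow h1 hh1)).trans_lt (lt_card_of_not_pv hp hE h))
  obtain ⟨e0, he0, n0⟩ := exists_not_mem_of_card (W := zpowers h1 ⊔ zpowers h2) (E := E) (by
    rwa [PGrp.card_sup_zpowers_of_commute (orderOf_eq_prime (hE.pow h1 hh1) n1) (hE.pow h2 hh2) n2
      (hE.comm _ hh1 _ hh2)])
  obtain ⟨ψ, hψ, ψ0, ψ1⟩ := hE.exists_fn hp (sup_le (zpowers_le.2 hh1) (zpowers_le.2 hh2)) he0 n0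
  have ψ2 := ψ1 h2 (mem_sup_right (mem_zpowers h2))
  replace ψ1 := ψ1 h1 (mem_sup_left (mem_zpowers h1))
  obtain ⟨χ, hχ, χ2, χ1⟩ := hE.exists_fn hp (zpowers_le.2 hh1) hh2 n2
  replace χ1 := χ1 h1 (mem_zpowers h1)
  obtain ⟨α, hα, α1, -⟩ := hE.exists_fn hp bot_le hh1 n1
  obtain ⟨C, hC⟩ := IsSylowIn.exists_in (p := p) 𝐂(E)
  have hCR : ∀ c ∈ 𝐂(E), Tv E ψ c 1 := fun c => tv_one hψ
  obtain ⟨Q, hCQ, hQ⟩ := IsSylowIn.exists_ge (H := tvGroup hE hψ) hC.isPGroup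
    fun c hc => ⟨1, hCR c (hC.le hc)⟩
  let ι : G → G := fun x => e0⁻¹ * (x * e0 * x⁻¹)
  have hι : ∀ {x w}, Tv E ψ x w → ι x = w := fun h => by
    simp only [ι]; rw [h.2 e0 he0, ψ0, ZMod.val_one]; simp
  have hι' : ∀ x ∈ Q, Tv E ψ x (ι x) := fun x hx => by
    obtain ⟨w, hw⟩ := hQ.le hx
    rwa [hι hw]
  have surj : ∀ w ∈ E, ψ w = 0 → ∃ x ∈ Q, ι x = w := fun w hw h0 => by
    obtain ⟨t, -, ht⟩ := exists_transv hp hE hN h hψ hw h0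
    obtain ⟨x, hx, e⟩ := Tv.exists_mem hp hE hψ hQ ⟨⟨hw, h0⟩, ht⟩
    exact ⟨x, hx, hι e⟩
  obtain ⟨g0, hg0, e0'⟩ := exists_transv hp hE hN h hχ hh1 χ1
  have hg0' : ∀ v ∈ E, ψ (g0 * v * g0⁻¹) = ψ v := fun v hv => by
    rw [e0' v hv, hψ v hv _ (pow_mem hh1 _), (hψ.ker.pow_mem ⟨hh1, ψ1⟩ _).2, add_zero]
  obtain ⟨r, ⟨w', hr⟩, hg⟩ := hQ.frattini_elem (g := g0)
    (mem_normalizer_of_conj_mem fun x ⟨w, hx⟩ => ⟨_, hx.conj hg0 hg0'⟩)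
  have hgE := mul_mem hr.norm hg0
  have hg1 : ∀ v ∈ E, ψ (r * g0 * v * (r * g0)⁻¹) = ψ v := fun v hv => by
    rw [show r * g0 * v * (r * g0)⁻¹ = r * (g0 * v * g0⁻¹) * r⁻¹ by group,
      hr.fn hψ (conj_mem_of_mem_normalizer hg0 hv), hg0' v hv]
  have hg2 : ∀ v ∈ hψ.ker, r * g0 * v * (r * g0)⁻¹ = v * h1 ^ (χ v).val := fun v hv => by
    have := mul_mem hv (hψ.ker.pow_mem ⟨hh1, ψ1⟩ (χ v).val)
    rw [show r * g0 * v * (r * g0)⁻¹ = r * (g0 * v * g0⁻¹) * r⁻¹ by group, e0' v hv.1,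
      hr.fix this.1 this.2]
  generalize r * g0 = g at hg hgE hg1 hg2
  have hEC := hE.le_sylow hp hC
  have hgH : g ∈ 𝐍(hψ.ker) := mem_normalizer_of_conj_mem fun v hv =>
    hg2 v hv ▸ mul_mem hv (hψ.ker.pow_mem ⟨hh1, ψ1⟩ _)
  have hg3 : ∀ n : ℕ, g⁻¹ * h1 ^ n * g = h1 ^ n := fun n => by
    have := hg2 h1 ⟨hh1, ψ1⟩
    rw [χ1, ZMod.val_zero, pow_zero, mul_one] at this
    conv_lhs => rw [← this, conj_pow]
    group
  obtain ⟨k, -, ⟨j, hj⟩, e⟩ := (hG.na Q).cen_p hp (E := hψ.ker) (fun v hv => hCQ (hEC hv.1))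
    (le_centralizer_iff.1 fun x hx => mem_cent_of_conj fun v hv => (hι' x hx).fix hv.1 hv.2)
    (fun e he => hE.pow e he.1) (f := fun x => h1 ^ (α (ι x)).val)
    (fun _ _ => hψ.ker.pow_mem ⟨hh1, ψ1⟩ _)
    (fun a ha b hb => by
      rw [hι ((hι' a ha).mul hE hψ (hι' b hb)), hα _ (hι' a ha).1.1 _ (hι' b hb).1.1,
        pow_val_add (hE.pow h1 hh1)])
    (fun e he => by rw [hι (hCR e (hE.le_cent he.1)), hα.one]; simp) (inv_mem hg) (inv_mem hgH)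
  replace e : ∀ a ∈ Q, k * a * k⁻¹ = a * (h1 ^ (χ (ι a)).val)⁻¹ := fun a ha => by
    rw [e a ha, inv_inv, hι ((hι' a ha).conj hgE hg1), hg3, hg2 _ (hι' a ha).1,
      hα _ (hι' a ha).1.1 _ (pow_mem hh1 _), hα.pow hh1, α1, mul_one, ZMod.natCast_zmod_val,
      pow_val_add (hE.pow h1 hh1), ← pow_add, add_comm, pow_add]
    group
  have hkC : k ∈ 𝐂(C) := mem_cent_of_conj fun c hc => by
    rw [e c (hCQ hc), hι (hCR c (hC.le hc)), hχ.one]; simp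
  have hkE : k ∈ E := zc' hp hG hE hm hC (hne_of_not_pv hp hE hN h)
    ⟨mem_of_ppow hp hC (centralizer_le hEC hkC) (U4.cent_le_norm C hkC) hj, hkC⟩
  obtain ⟨x, hx, ex⟩ := surj h1 hh1 ψ1
  obtain ⟨y, hy, ey⟩ := surj h2 hh2 ψ2
  have e1 := e x hx
  have e2 := e y hy
  have e3 := (hι' x hx).2 k hkE
  rw [ex, χ1, ZMod.val_zero, pow_zero, inv_one, mul_one, mul_inv_eq_iff_eq_mul] at e1
  rw [← e1, mul_inv_cancel_right, ex, left_eq_mul] at e3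
  have e4 := (hι' y hy).fix hkE (eq_zero_of_pow_val hp (hE.pow h1 hh1) n1 e3)
  rw [mul_inv_eq_iff_eq_mul] at e4
  rw [← e4, mul_inv_cancel_right, ey, χ2, ZMod.val_one, pow_one, left_eq_mul, inv_eq_one] at e2
  exact n1 e2

theorem card_eq_sq' (hp : p.Prime) (hG : Hm G) (hE : EA p E) (hm : Mx p E) (h : ¬ PV p E) :
    Nat.card E = p ^ 2 := by
  have := Fact.mk hp
  obtain ⟨n, hn⟩ := IsPGroup.iff_card.1 hE.isPGroup
  have h1 := lt_card_of_not_pv hp hE h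
  have h2 := not_cube_le hp hG hE hm h
  rw [hn, Nat.pow_lt_pow_iff_right hp.one_lt] at h2
  nth_rewrite 1 [← pow_one p] at h1
  rw [hn, Nat.pow_lt_pow_iff_right hp.one_lt] at h1
  rw [hn, show n = 2 by omega]

end CfsgLib.Hom
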