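import Cfsg.Agent.Lib.Hom.CenA
import Cfsg.Agent.Lib.GD.Defs
import Cfsg.Agent.Lib.CoreRealTwo

/-!
# Homogeneous groups whose involutions are central
-/

set_option autoImplicit false

namespace CfsgLib.Hom

open Subgroup Cfsg CfsgLib.FT CfsgLib.FT.BGN

variable {G : Type*} [Group G] [Finite G]

theorem uniq_inv (hG : Hm G) (hn : ¬ HasNormalPComplement 2 G)
    (hc : ∀ a : G, a * a = 1 → a ∈ center G) {a b : G} (ha : orderOf a = 2)
    (hb : orderOf b = 2) : a = b :=
  uniq_inv' hG hn hc ha hb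

theorem not_hnpc_of_perfect (hp : commutator G = ⊤) {p : ℕ} (hp' : p.Prime) {a : G}
    (ha : orderOf a = p) : ¬ HasNormalPComplement p G := fun h => by
  have := Fact.mk hp'
  have : Group.IsPerfect G := ⟨hp⟩
  obtain ⟨N, hN, h1, k, h2⟩ := PCompl.hnpc_exists_normal h
  have h3 := (IsPGroup.of_card (G := G ⧸ N) h2).isNilpotent
  have h4 : Subsingleton (G ⧸ N) := by
    by_contra h5
    have := not_subsingleton_iff_nontrivial.1 h5
    exact Group.IsPerfect.not_isNilpotent (G ⧸ N) h3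
  have h5 : a ∈ N := (QuotientGroup.eq_one_iff a).1 (Subsingleton.elim _ _)
  exact hp'.ne_one (h1.symm.eq_one_of_dvd (ha ▸ orderOf_dvd_natCard N h5))

omit [Finite G] in
theorem mem_center_map (φ : G ≃* G) {a : G} (ha : a ∈ center G) : φ a ∈ center G :=
  mem_center_iff.2 fun g => by
    obtain ⟨g, rfl⟩ := φ.surjective g
    rw [← map_mul, mem_center_iff.1 ha g, map_mul]

theorem Hm.mem_center (hG : Hm G) {a b : G} (ha : a ∈ center G) (e : orderOf a = orderOf b) :
    b ∈ center G := by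
  obtain ⟨φ, rfl⟩ := hG.cj e
  exact mem_center_map φ ha

theorem dih_quot (h2 : IsPGroup 2 (center G)) (hc : ∀ a : G, a * a = 1 → a ∈ center G)
    (hu : ∀ a b : G, orderOf a = 2 → orderOf b = 2 → a = b) : GD.Dih (G ⧸ center G) := by
  intro T hT
  let π := QuotientGroup.mk' (center G)
  have hP : IsPGroup 2 (T.comap π) :=
    hT.comap_of_ker_isPGroup π (by rwa [QuotientGroup.ker_mk'])
  have key : ∀ x y : T.comap π, π y ∉ zpowers (π x) → y ∉ zpowers x := fun x y hy ⟨n, e⟩ =>
    hy ⟨n, by rw [← e]; simp⟩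
  have hs : ∀ y ∈ T, ∃ y' : T.comap π, π y' = y := fun y hy => by
    obtain ⟨y, rfl⟩ := QuotientGroup.mk'_surjective (center G) y
    exact ⟨⟨y, hy⟩, rfl⟩
  rcases PGrp.isCyclic_or_quaternion_of_unique_involution hP (fun a b ha hb =>
    Subtype.ext (hu _ _ (by rwa [orderOf_coe]) (by rwa [orderOf_coe]))) with h | ⟨k, hk, ⟨e⟩⟩
  · obtain ⟨x, hx⟩ := h.exists_generator
    refine ⟨π x, x.2, fun y hy hy' => ?_⟩
    obtain ⟨y, rfl⟩ := hs y hy
    exact absurd (hx y) (key x y hy')
  · obtain ⟨x, y, h1, h3, -⟩ := PGrp.exists_isDQSDPair_of_mulEquiv_quaternionGroup hk e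
    refine ⟨π x, x.2, fun g hg hg' => ?_⟩
    obtain ⟨g, rfl⟩ := hs g hg
    have h4 := key x g hg'
    refine ⟨?_, ?_, fun g' hg1 hg2 => ?_⟩
    · have h5 := pow_card_eq_one' (x := (⟨_, h1.sq_mem_center h4⟩ : center (T.comap π)))
      rw [h1.card_center] at h5
      have h6 : ((g : G) ^ 2) ^ 2 = 1 := congrArg (fun t : center (T.comap π) => (t.1 : G)) h5
      rw [← map_mul]
      exact (QuotientGroup.eq_one_iff _).2 (hc _ (by rw [← h6, pow_two, pow_two]))
    · rcases h1.mem_or g with ⟨i, rfl⟩ | ⟨i, rfl⟩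
      · exact absurd ⟨i, rfl⟩ h4
      · have h5 : y * x ^ i * x * (y * x ^ i)⁻¹ = x⁻¹ := by rw [← h3]; group
        have h6 := congrArg (fun t : T.comap π => π t) h5
        simpa using h6
    · obtain ⟨g', rfl⟩ := hs g' hg1
      obtain ⟨n, hn⟩ := (mul_mem_iff_of_index_two h1.index_zpowers).2
        (iff_of_false h4 (key x g' hg2))
      exact ⟨n, by rw [← map_mul, ← coe_mul, ← hn]; simp⟩

/-- The centre of a perfect homogeneous group has order at most two, and if it is nontrivial then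
the central quotient has dihedral Sylow `2`-subgroups. -/
theorem center_struct (hG : Hm G) (hp : commutator G = ⊤) (hz : center G ≠ ⊥) :
    Nat.card (center G) = 2 ∧ (∀ a : G, a * a = 1 → a ∈ center G) ∧
      GD.Dih (G ⧸ center G) := by
  have hodd : ∀ l : ℕ, l.Prime → l ∣ Nat.card (center G) → l = 2 := fun l hl hd => by
    have := Fact.mk hl
    by_contra h2
    obtain ⟨z, hz⟩ := exists_prime_orderOf_dvd_card' l hd
    rw [← orderOf_coe] at hz
    refine not_hnpc_of_perfect hp hl hz (hnpc_of_central hl h2 fun a ha => ?_)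
    by_cases h1 : a = 1
    · exact h1 ▸ one_mem _
    · exact hG.mem_center z.2 (hz.trans (orderOf_eq_prime ha h1).symm)
  have h2 : IsPGroup 2 (center G) :=
    IsPGroup.of_card (Nat.eq_prime_pow_of_unique_prime_dvd Nat.card_pos.ne' (hodd _))
  obtain ⟨z, hz2⟩ := exists_prime_orderOf_dvd_card' (G := center G) 2 (by
    obtain ⟨l, hl, hd⟩ := Nat.exists_prime_and_dvd (n := Nat.card (center G))
      fun h => hz (card_eq_one.1 h)
    exact hodd l hl hd ▸ hd)
  rw [← orderOf_coe] at hz2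
  have hn := not_hnpc_of_perfect hp Nat.prime_two hz2
  have hc : ∀ a : G, a * a = 1 → a ∈ center G := fun a ha => by
    by_cases h1 : a = 1
    · exact h1 ▸ one_mem _
    · exact hG.mem_center z.2 (hz2.trans (orderOf_eq_prime (by rwa [pow_two]) h1).symm)
  have hu : ∀ a b : G, orderOf a = 2 → orderOf b = 2 → a = b := fun a b => uniq_inv hG hn hc
  have h4 : ∀ w ∈ center G, w ^ 2 ^ 2 = 1 → w ^ 2 ^ 1 = 1 := fun w hw e => by
    by_contra h
    refine hn (hnpc_two_of_real_central fun x hx _ => ?_)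
    by_cases h1 : x ^ 2 ^ 1 = 1
    · exact hc x (by rw [← h1, pow_one, pow_two])
    · exact hG.mem_center hw ((orderOf_eq_prime_pow h e).trans
        (orderOf_eq_prime_pow (n := 1) h1 hx).symm)
  refine ⟨?_, hc, dih_quot h2 hc hu⟩
  suffices h : center G = zpowers (z : G) by rw [← hz2, ← Nat.card_zpowers, ← h]
  refine le_antisymm (fun w hw => ?_) (zpowers_le.2 z.2)
  obtain ⟨j, hj⟩ := exists_ppow h2 hw
  have h5 : w ^ 2 = 1 := by
    induction j generalizing w with
    | zero => rw [pow_zero, pow_one] at hj; rw [hj, one_pow]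
    | succ j ih =>
      have := ih _ (pow_mem hw 2) (by rw [← pow_mul, ← pow_succ', hj])
      simpa using h4 w hw (by rw [← this, ← pow_mul]; rfl)
  by_cases h1 : w = 1
  · exact h1 ▸ one_mem _
  · exact hu _ _ hz2 (orderOf_eq_prime h5 h1) ▸ mem_zpowers _

end CfsgLib.Hom
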