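import Cfsg.Agent.Lib.Hom.CaseII

/-!
# Homogeneous groups whose involutions are central: uniqueness of the involution
-/

set_option autoImplicit false

namespace CfsgLib.Hom

open Subgroup Cfsg CfsgLib.FT CfsgLib.FT.BGN

variable {G : Type*} [Group G] [Finite G] {E Q : Subgroup G}

/-- The elements of `N(Q)` fixing all functionals on `Q / E`. -/
def fnStab (E Q : Subgroup G) : Subgroup G where
  carrier := {k | k ∈ 𝐍(Q) ∧ ∀ l : G → ZMod 2, Fn 2 Q l → (∀ e ∈ E, l e = 0) →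
    ∀ x ∈ Q, l (k * x * k⁻¹) = l x}
  one_mem' := ⟨one_mem _, fun l _ _ x _ => by simp⟩
  mul_mem' := fun {a b} ha hb => ⟨mul_mem ha.1 hb.1, fun l h1 h2 x hx => by
    rw [show a * b * x * (a * b)⁻¹ = a * (b * x * b⁻¹) * a⁻¹ by group,
      ha.2 l h1 h2 _ (conj_mem_of_mem_normalizer hb.1 hx), hb.2 l h1 h2 x hx]⟩
  inv_mem' := fun {a} ha => ⟨inv_mem ha.1, fun l h1 h2 x hx => by
    rw [← ha.2 l h1 h2 _ (conj_mem_of_mem_normalizer (inv_mem ha.1) hx)]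
    congr 1; group⟩

omit [Finite G] in
theorem le_fnStab : Q ≤ fnStab E Q := fun k hk => ⟨le_normalizer hk, fun l h1 _ x hx => by
  rw [h1 _ (mul_mem hk hx) _ (inv_mem hk), h1 _ hk _ hx, h1.inv hk]; ring⟩

omit [Finite G] in
theorem Fn.conj_norm {p : ℕ} {l : G → ZMod p} (h : Fn p Q l) {g : G} (hg : g ∈ 𝐍(Q)) :
    Fn p Q fun x => l (g * x * g⁻¹) := fun a ha b hb => by
  simp only
  rw [← h _ (conj_mem_of_mem_normalizer hg ha) _ (conj_mem_of_mem_normalizer hg hb),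
    _root_.conj_mul]

theorem norm_fnStab (hE : E ≤ center G) {g : G} (hg : g ∈ 𝐍(Q)) : g ∈ 𝐍(fnStab E Q) :=
  mem_normalizer_of_conj_mem fun k hk => ⟨mul_mem (mul_mem hg hk.1) (inv_mem hg),
    fun l h1 h2 x hx => by
      have := hk.2 _ (h1.conj_norm hg) (fun e he => by
        rw [mem_center_iff.1 (hE he) g, mul_inv_cancel_right, h2 e he]) _
        (conj_mem_of_mem_normalizer' hg hx)
      rw [show g * k * g⁻¹ * x * (g * k * g⁻¹)⁻¹ = g * (k * (g⁻¹ * x * g) * k⁻¹) * g⁻¹ by group,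
        this]
      congr 1; group⟩

/-- An element of odd order fixing all functionals centralizes `Q`. -/
theorem cent_of_fnStab (hE : E ≤ center G) (hEQ : E ≤ Q) (hQ : IsPGroup 2 Q) {w : G}
    (hw : w ∈ fnStab E Q) (ho : (orderOf w).Coprime 2) : w ∈ 𝐂(Q) := by
  classical
  by_contra hn
  have hlt : Q ⊓ 𝐂(zpowers w) < Q := lt_of_le_of_ne inf_le_left fun h =>
    hn (le_centralizer_iff.1 (h.symm.le.trans inf_le_right) (mem_zpowers w))
  obtain ⟨M, h1, h2, -, h3⟩ := exists_norm_relIndex_eq_prime hQ hlt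
  obtain ⟨l, hl, hM⟩ : ∃ l : G → ZMod 2, Fn 2 Q l ∧ ∀ x, l x = 0 ↔ x ∈ M :=
    ⟨fun x => if x ∈ M then 0 else 1, fun a ha b hb => by
      have := mul_mem_iff_of_index_two h3 (a := ⟨a, ha⟩) (b := ⟨b, hb⟩)
      simp only [mem_subgroupOf, coe_mul] at this
      by_cases h4 : a ∈ M <;> by_cases h5 : b ∈ M <;> simp [this, h4, h5]
      decide, fun x => by simp⟩
  have h0 : ∀ e ∈ E, l e = 0 := fun e he =>
    (hM e).2 (h1 ⟨hEQ he, U4.mem_cent.2 fun a _ => mem_center_iff.1 (hE he) a⟩)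
  obtain ⟨n, hn⟩ := IsPGroup.iff_card.1 hQ
  have hs := Cop.commutator_sup_centralizer (A := zpowers w) (G := Q) (zpowers_le.2 hw.1)
    (by rw [Nat.card_zpowers, hn]; exact ho.pow_right n) (Or.inr (by
      have := hQ.isNilpotent; infer_instance))
  refine h2.not_ge (hs.symm.le.trans (sup_le (commutator_le.2 fun x hx a ha => ?_) h1))
  have ha' := zpowers_le.2 hw ha
  have h4 := hl x hx _ (conj_mem_of_mem_normalizer ha'.1 (inv_mem hx))
  rw [ha'.2 _ hl h0 _ (inv_mem hx), hl.inv hx, add_neg_cancel] at h4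
  rw [commutatorElement_def, mul_assoc, mul_assoc, ← mul_assoc a, ← hM, h4]

theorem exists_sylow_fnStab (hE : E ≤ center G) (hE2 : IsPGroup 2 E)
    (hn : ¬ HasNormalPComplement 2 G) : ∃ Q : Subgroup G, E ≤ Q ∧ IsSylowIn 2 Q (fnStab E Q) ∧
      ∃ g ∈ 𝐍(Q), g ∉ fnStab E Q ∧ Odd (orderOf g) := by
  let P : Subgroup G → Prop := fun H => IsPGroup 2 H ∧ ∃ g ∈ 𝐍(H), g ∉ 𝐂(H) ∧
    ∃ q k : ℕ, q.Prime ∧ q ≠ 2 ∧ orderOf g = q ^ k
  have hP : ∃ H, P H := by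
    by_contra h
    refine hn (FrobNPC.hnpc_of_primePow_centralizes fun H h1 _ g hg q k hq h2 ho => ?_)
    by_contra h3
    exact h ⟨H, h1, g, hg, h3, q, k, hq, h2, ho⟩
  obtain ⟨Q₀, hQ₀⟩ := hP
  obtain ⟨Q, -, ⟨hQ, g, hg, hgC, q, k, hq, h2, ho⟩, hm⟩ := Finite.exists_le_maximal hQ₀
  have hEn : ∀ x : G, x ∈ 𝐍(E) := fun x => mem_normalizer_of_conj_mem fun e he => by
    rwa [mem_center_iff.1 (hE he) x, mul_inv_cancel_right]
  have hEQ : E ≤ Q := le_sup_right.trans (hm (y := Q ⊔ E)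
    ⟨hQ.to_sup_of_normal_right' hE2 fun x _ => hEn x, g, normalizer_inf_normalizer_le_normalizer_sup
      _ _ ⟨hg, hEn g⟩, fun h => hgC (centralizer_le (by simp) h), q, k, hq, h2, ho⟩ le_sup_left)
  have hcop : ∀ j, (q ^ j).Coprime 2 := fun j =>
    ((Nat.coprime_primes hq Nat.prime_two).2 h2).pow_left j
  have hgK : g ∉ fnStab E Q := fun h => hgC (cent_of_fnStab hE hEQ hQ h (ho ▸ hcop k))
  refine ⟨Q, hEQ, ?_, g, hg, hgK, ho ▸ Nat.coprime_two_right.1 (hcop k)⟩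
  obtain ⟨R, hQR, hR⟩ := IsSylowIn.exists_ge hQ (le_fnStab (E := E))
  have hgN := norm_fnStab hE hg
  obtain ⟨c, hc, hcg⟩ := hR.frattini_elem hgN
  obtain ⟨u, hu, v, hv, e, -, ⟨j, hj⟩, hov⟩ := exists_p_part hq (c * g)
  have hpow : ∀ n : ℕ, (c * g) ^ n * (g ^ n)⁻¹ ∈ fnStab E Q := fun n => by
    induction n with
    | zero => simp
    | succ n ih =>
      rw [show (c * g) ^ (n + 1) * (g ^ (n + 1))⁻¹ = c * (g * ((c * g) ^ n * (g ^ n)⁻¹) * g⁻¹) by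
        rw [pow_succ', pow_succ' g]; group]
      exact mul_mem hc (conj_mem_of_mem_normalizer hgN ih)
  have hvK : v ∈ fnStab E Q := by
    have h3 := hpow (q ^ k)
    rw [← ho, pow_orderOf_eq_one, inv_one, mul_one, ho] at h3
    obtain ⟨i, rfl⟩ := hv
    refine zpowers_le.2 ?_ (mem_zpowers_pow_iff.2 (hov.pow_right k).symm)
    simp only
    rw [← zpow_natCast, ← zpow_mul, mul_comm, zpow_mul, zpow_natCast]
    exact zpow_mem h3 i
  have huC : u ∉ 𝐂(R) := fun h => hgK (by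
    have h3 : u ∈ fnStab E Q := ⟨U4.cent_le_norm Q (centralizer_le hQR h), fun l _ _ x hx => by
      rw [conj_eq_of_cent h (hQR hx)]⟩
    have := mul_mem (inv_mem hc) (e ▸ mul_mem h3 hvK : c * g ∈ fnStab E Q)
    simpa using this)
  have := hm (y := R) ⟨hR.isPGroup, u, zpowers_le.2 hcg hu, huC, q, j, hq, h2, hj⟩ hQR
  exact le_antisymm this hQR ▸ hR

omit [Finite G] in
theorem card_le_of_sq {A Z : Subgroup G} [Finite A] [Finite E] [Finite Z]
    (hA : ∀ a ∈ A, ∀ b ∈ A, Commute a b) (hE : ∀ x, x * x = 1 → x ∈ E)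
    (hZ : ∀ a ∈ A, a * a ∈ Z) : Nat.card A ≤ Nat.card E * Nat.card Z := by
  let f : A →* Z := MonoidHom.mk' (fun a => ⟨a * a, hZ a a.2⟩) fun a b => Subtype.ext (by
    simp only [coe_mul]
    rw [mul_assoc, mul_assoc, ← mul_assoc (b : G), ← (hA a a.2 b b.2).eq, mul_assoc])
  rw [← f.ker.card_mul_index, index_ker]
  refine Nat.mul_le_mul (Nat.card_le_card_of_injective
    (fun x => (⟨(x.1 : G), hE _ (congrArg Subtype.val x.2)⟩ : E)) fun x y h => ?_)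
    (card_le_card_group _)
  exact Subtype.ext (Subtype.ext (congrArg (Subtype.val : E → G) h))

/-- `c` acts on `Q` as `x ↦ x e^μ(x)`. -/
def Act (Q : Subgroup G) (μ : G → ZMod 2) (c e : G) : Prop :=
  c ∈ Q ∧ ∀ x ∈ Q, c * x * c⁻¹ = x * e ^ (μ x).val

omit [Finite G] in
theorem Act.eq_zero {μ ν : G → ZMod 2} {c e c' e' : G} (h : Act Q μ c e) (h' : Act Q ν c' e')
    (he : e ∈ center G) (h1 : e ≠ 1) (h2 : e * e' ≠ 1) : μ c' = 0 := by
  have h3 := h.2 c' h'.1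
  have h4 := h'.2 c h.1
  have key : e ^ (μ c').val * e' ^ (ν c).val = 1 := by
    have hc := mem_center_iff.1 (pow_mem he (μ c').val)
    rw [← inv_mul_eq_iff_eq_mul.2 h4]
    rw [mul_inv_eq_iff_eq_mul, mul_assoc, ← hc, ← mul_assoc] at h3
    rw [← mul_assoc, ← hc, mul_assoc, ← mul_assoc _ (c' * c), ← hc, ← h3]
    group
  by_contra h5
  have h6 : ∀ t : ZMod 2, t ≠ 0 → t.val = 1 := by decide
  rw [h6 _ h5, pow_one] at key
  by_cases h7 : ν c = 0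
  · exact h1 (by simpa [h7] using key)
  · exact h2 (by simpa [h6 _ h7] using key)

theorem false_of_act (hE : E ≤ center G) (hE2 : ∀ x, x * x = 1 ↔ x ∈ E)
    {a b : G} (ha : a ∈ E) (hb : b ∈ E) (ha1 : a ≠ 1) (hb1 : b ≠ 1) (hab : a ≠ b)
    {μ ν : G → ZMod 2} (hμ : Fn 2 Q μ) (hν : Fn 2 Q ν) {x y : G} (hx : x ∈ Q) (hy : y ∈ Q)
    (hx1 : μ x = 1) (hx2 : ν x = 0) (hy1 : μ y = 0) (hy2 : ν y = 1)
    (h1 : ∀ e ∈ E, ∃ c, Act Q μ c e) (h2 : ∀ e ∈ E, ∃ c, Act Q ν c e) : False := by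
  have hz : ∀ {κ : G → ZMod 2}, (∀ e ∈ E, ∃ c, Act Q κ c e) → ∀ {ρ : G → ZMod 2} {c e : G},
      Act Q ρ c e → κ c = 0 := fun h ρ c e hc => by
    obtain ⟨c1, h3⟩ := h a ha
    obtain ⟨c2, h4⟩ := h b hb
    by_cases h5 : a * e = 1
    · exact h4.eq_zero hc (hE hb) hb1 fun h6 => hab (mul_right_cancel (h5.trans h6.symm))
    · exact h3.eq_zero hc (hE ha) ha1 h5
  let M := hμ.ker ⊓ hν.ker
  let A : Subgroup G :=
    { carrier := {c | c ∈ M ⊓ 𝐂(M) ∧ c * c ∈ Q ⊓ 𝐂(Q)}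
      one_mem' := ⟨one_mem _, by simp⟩
      mul_mem' := fun {a b} ha hb => ⟨mul_mem ha.1 hb.1, by
        rw [mul_assoc, ← mul_assoc b, ← U4.mem_cent.1 hb.1.2 a ha.1.1, mul_assoc, ← mul_assoc]
        exact mul_mem ha.2 hb.2⟩
      inv_mem' := fun {a} ha => ⟨inv_mem ha.1, by rw [← mul_inv_rev]; exact inv_mem ha.2⟩ }
  have hA : ∀ {ρ : G → ZMod 2} {c e : G}, Act Q ρ c e → e * e = 1 → (∀ m ∈ M, e ^ (ρ m).val = 1) →
      c ∈ A := fun {ρ c e} hc he hm =>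
    ⟨⟨⟨⟨hc.1, hz h1 hc⟩, hc.1, hz h2 hc⟩, mem_cent_of_conj fun m h => by
      rw [hc.2 m h.1.1, hm m h, mul_one]⟩, mul_mem hc.1 hc.1, mem_cent_of_conj fun z hz => by
      have h3 := mem_center_iff.1 (pow_mem (hE ((hE2 e).1 he)) (ρ z).val) c
      rw [show c * c * z * (c * c)⁻¹ = c * (c * z * c⁻¹) * c⁻¹ by group, hc.2 z hz,
        ← _root_.conj_mul, hc.2 z hz, h3, mul_inv_cancel_right, mul_assoc, ← pow_two, ← pow_mul,
        mul_comm, pow_mul, pow_two, he, one_pow, mul_one]⟩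
  choose! c hc using h1
  choose! d hd using h2
  have hle := card_le_of_sq (A := A) (Z := Q ⊓ 𝐂(Q)) (fun u hu v hv => U4.mem_cent.1 hv.1.2 u hu.1.1)
    (fun x => (hE2 x).1) fun u hu => hu.2
  have hact : ∀ (e e' : E) (z : ↥(Q ⊓ 𝐂(Q))), ∀ w ∈ Q, c e * d e' * z * w * (c e * d e' * z)⁻¹ =
      w * (e : G) ^ (μ w).val * (e' : G) ^ (ν w).val := fun e e' z w hw => by
    rw [show c e * d e' * z * w * (c e * d e' * z)⁻¹ =
      c e * (d e' * (z * w * (z : G)⁻¹) * (d e')⁻¹) * (c e)⁻¹ by group, conj_eq_of_cent z.2.2 hw,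
      (hd _ e'.2).2 w hw, ← _root_.conj_mul, (hc _ e.2).2 w hw,
      mem_center_iff.1 (pow_mem (hE e'.2) _), mul_inv_cancel_right]
  have hge := Nat.card_le_card_of_injective
    (fun t : E × E × ↥(Q ⊓ 𝐂(Q)) => (⟨c t.1 * d t.2.1 * t.2.2, mul_mem (mul_mem
      (hA (hc _ t.1.2) ((hE2 _).2 t.1.2) fun m hm => by rw [hm.1.2]; simp)
      (hA (hd _ t.2.1.2) ((hE2 _).2 t.2.1.2) fun m hm => by rw [hm.2.2]; simp))
      (hA (ρ := μ) (e := 1) ⟨t.2.2.2.1, fun w hw => by simpa using conj_eq_of_cent t.2.2.2.2 hw⟩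
        (one_mul 1) fun _ _ => one_pow _)⟩ : A)) (by
    rintro ⟨e1, e1', z1⟩ ⟨e2, e2', z2⟩ h
    have h3 : c e1 * d e1' * z1 = c e2 * d e2' * z2 := congrArg Subtype.val h
    have h4 := hact e1 e1' z1 x hx
    have h5 := hact e1 e1' z1 y hy
    rw [h3, hact _ _ _ _ hx, hx1, hx2] at h4
    rw [h3, hact _ _ _ _ hy, hy1, hy2] at h5
    obtain rfl : e2 = e1 := by simpa [ZMod.val_one] using h4
    obtain rfl : e2' = e1' := by simpa [ZMod.val_one] using h5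
    rw [Subtype.ext (mul_left_cancel h3)])
  rw [Nat.card_prod, Nat.card_prod] at hge
  have h3 : 1 < Nat.card E := (one_lt_card_iff_ne_bot E).2 fun h => ha1 (by simpa [h] using ha)
  have h4 : 0 < Nat.card E * Nat.card ↥(Q ⊓ 𝐂(Q)) := Nat.mul_pos Nat.card_pos Nat.card_pos
  nlinarith

theorem uniq_inv' (hG : Hm G) (hn : ¬ HasNormalPComplement 2 G)
    (hc : ∀ a : G, a * a = 1 → a ∈ center G) {a b : G} (ha : orderOf a = 2)
    (hb : orderOf b = 2) : a = b := by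
  by_contra hab
  let E : Subgroup G :=
    { carrier := {x | x * x = 1}
      one_mem' := one_mul 1
      mul_mem' := fun {a b} ha hb => by
        change a * b * (a * b) = 1
        rw [mul_assoc, ← mul_assoc b, ← mem_center_iff.1 (hc b hb) a, mul_assoc, hb, mul_one, ha]
      inv_mem' := fun {a} ha => by
        change a⁻¹ * a⁻¹ = 1
        rw [← mul_inv_rev, ha, inv_one] }
  have hE : E ≤ center G := hc
  have hE2 : ∀ e ∈ E, e ^ 2 = 1 := fun e he => by rwa [pow_two]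
  obtain ⟨Q, hEQ, hQ, g, hg, hgK, ho⟩ := exists_sylow_fnStab hE
    (fun e => ⟨1, Subtype.ext (by simpa using hE2 e e.2)⟩) hn
  have hcj : ∀ x : G, ∀ e ∈ E, x * e * x⁻¹ = e := fun x e he => by
    rw [mem_center_iff.1 (hE he) x, mul_inv_cancel_right]
  obtain ⟨l, hl, hl0, x0, hx0, hne⟩ : ∃ l : G → ZMod 2, Fn 2 Q l ∧ (∀ e ∈ E, l e = 0) ∧
      ∃ x ∈ Q, l (g⁻¹ * x * g⁻¹⁻¹) ≠ l x := by
    by_contra h
    push Not at h
    exact hgK (inv_mem_iff.1 ⟨inv_mem hg, h⟩)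
  have hl' := hl.conj_norm (inv_mem hg)
  let μ : G → ZMod 2 := fun x => l x + l (g⁻¹ * x * g⁻¹⁻¹)
  have hμ : Fn 2 Q μ := fun a ha b hb => by
    have h := hl' a ha b hb
    simp only [μ] at h ⊢
    rw [hl a ha b hb, h]; ring
  have h1 : ∀ e ∈ E, ∃ c, Act Q μ c e := fun e he => by
    obtain ⟨k, hk, ⟨j, hj⟩, h⟩ := (hG.na Q).cen_p Nat.prime_two hEQ
      (fun e he => U4.mem_cent.2 fun a _ => mem_center_iff.1 (hE he) a) hE2
      (f := fun x => e ^ (l x).val) (fun _ _ => pow_mem he _)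
      (fun a ha b hb => by rw [hl a ha b hb, pow_val_add (hE2 e he)])
      (fun e' he' => by rw [hl0 e' he']; simp) hg
      (mem_normalizer_of_conj_mem fun e he => by rwa [hcj g e he])
    have h2 : ∀ x ∈ Q, k * x * k⁻¹ = x * e ^ (μ x).val := fun x hx => by
      rw [h x hx, hcj g _ (pow_mem he _), pow_val_add (hE2 e he), inv_inv,
        inv_eq_of_mul_eq_one_right (pow_mem he _)]
    refine ⟨k, mem_of_ppow Nat.prime_two hQ ⟨hk, fun l' h3 h4 x hx => ?_⟩ hk hj, h2⟩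
    rw [h2 x hx, h3 x hx _ (hEQ (pow_mem he _)), h4 _ (pow_mem he _), add_zero]
  have hν := hμ.conj_norm (inv_mem hg)
  have h2 : ∀ e ∈ E, ∃ c, Act Q (fun x => μ (g⁻¹ * x * g⁻¹⁻¹)) c e := fun e he => by
    obtain ⟨c, h3, h4⟩ := h1 e he
    refine ⟨g * c * g⁻¹, conj_mem_of_mem_normalizer hg h3, fun x hx => ?_⟩
    rw [show g * c * g⁻¹ * x * (g * c * g⁻¹)⁻¹ = g * (c * (g⁻¹ * x * g⁻¹⁻¹) * c⁻¹) * g⁻¹ by group,
      h4 _ (conj_mem_of_mem_normalizer (inv_mem hg) hx), ← _root_.conj_mul, hcj g _ (pow_mem he _)]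
    congr 1; group
  have t1 : ∀ s t : ZMod 2, s ≠ t → t + s = 1 := by decide
  have t2 : ∀ s : ZMod 2, s = 0 ∨ s = 1 := by decide
  have hx1 : μ x0 = 1 := t1 _ _ hne
  have hy0 := conj_mem_of_mem_normalizer hg hx0
  have hy1 : μ (g⁻¹ * (g * x0 * g⁻¹) * g⁻¹⁻¹) = 1 := by rw [← hx1]; congr 1; group
  obtain ⟨z, hz, hz1⟩ : ∃ z ∈ Q, μ (g⁻¹ * z * g⁻¹⁻¹) ≠ μ z := by
    by_contra h
    push Not at h
    have h3 : ∀ n : ℕ, ∀ x ∈ Q, l (g⁻¹ ^ n * x * (g⁻¹ ^ n)⁻¹) = l x + n * μ x := fun n => by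
      induction n with
      | zero => simp
      | succ n ih =>
        intro x hx
        rw [show g⁻¹ ^ (n + 1) * x * (g⁻¹ ^ (n + 1))⁻¹ =
          g⁻¹ ^ n * (g⁻¹ * x * g⁻¹⁻¹) * (g⁻¹ ^ n)⁻¹ by rw [pow_succ]; group,
          ih _ (conj_mem_of_mem_normalizer (inv_mem hg) hx), h x hx, Nat.cast_succ, add_one_mul]
        have : ∀ s t : ZMod 2, t = s + (s + t) := by decide
        rw [this (l x) (l (g⁻¹ * x * g⁻¹⁻¹))]
        ring
    have h4 := h3 (orderOf g) x0 hx0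
    rw [inv_pow, pow_orderOf_eq_one, hx1, (ZMod.natCast_eq_one_iff_odd).2 ho] at h4
    simp at h4
  have := Fact.mk Nat.prime_two
  have ha' := orderOf_eq_prime_iff.1 ha
  have hb' := orderOf_eq_prime_iff.1 hb
  have key := fun {x y : G} => false_of_act (x := x) (y := y) hE (fun _ => Iff.rfl)
    (a := a) (b := b) (by rw [← pow_two, ha'.1] : a * a = 1) (by rw [← pow_two, hb'.1] : b * b = 1)
    ha'.2 hb'.2 hab hμ hν
  rcases t2 (μ z) with h3 | h3 <;> rcases t2 (μ (g⁻¹ * z * g⁻¹⁻¹)) with h4 | h4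
  · exact hz1 (h4.trans h3.symm)
  · rcases t2 (μ (g⁻¹ * x0 * g⁻¹⁻¹)) with h5 | h5
    · exact key hx0 hz hx1 h5 h3 h4 h1 h2
    · exact key (mul_mem hx0 hz) hz (by rw [hμ _ hx0 _ hz, hx1, h3, add_zero])
        ((hν _ hx0 _ hz).trans (by simp only; rw [h5, h4]; decide)) h3 h4 h1 h2
  · rcases t2 (μ (g * x0 * g⁻¹)) with h5 | h5
    · exact key hz hy0 h3 h4 h5 hy1 h1 h2
    · exact key hz (mul_mem hy0 hz) h3 h4 (by rw [hμ _ hy0 _ hz, h5, h3]; decide)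
        ((hν _ hy0 _ hz).trans (by simp only; rw [hy1, h4, add_zero])) h1 h2
  · exact hz1 (h4.trans h3.symm)

end CfsgLib.Hom
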