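import Cfsg.Agent.Lib.Hom.Aut
import Cfsg.Agent.Lib.Hom.SD
import Cfsg.Agent.Lib.GD.Main

/-!
# Dihedral Sylow `2`-subgroups
-/

set_option autoImplicit false

namespace CfsgLib.Hom

open Subgroup Cfsg CfsgLib.FT CfsgLib.FT.BGN Matrix MatrixGroups CfsgLib.GW

universe u

theorem not_a7 {G : Type*} [Group G] [Finite G] [IsSimpleGroup G] (hna : ¬ IsMulCommutative G)
    (h : OW G) (hd : GD.Dih G) (hA : GD.A7 (⊤ : Subgroup G)) : False := by
  have := Fintype.ofFinite G
  have hG : Nat.card G = 2520 := card_top.symm.trans hA.card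
  have hc : ∀ t : G, orderOf t = 2 → Nat.card 𝐂[t] = 24 := fun t ht => by
    simpa using (hA.cent t (mem_top t) ht).1
  have lv : SW.LV0 G := ⟨h, fun a ha => by rw [hc a ha]; norm_num,
    fun a b h4 => IsSylowIn.of_maximal h4.V_le_cent h4.isPGroup_V fun T hT _ h2 => hd.le_V h4 hT h2,
    fun a b ha hb => by
      obtain ⟨g, -, e⟩ := hd.oneCl_of_perf (L := ⊤) (BSW.commutator_eq_top_of_simple hna) a
        (mem_top a) b (mem_top b) ha hb
      exact ⟨g, e⟩⟩
  obtain ⟨t, -, ht⟩ := SW.exists_orderOf Nat.prime_two (H := (⊤ : Subgroup G))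
    (by rw [hA.card]; norm_num)
  obtain ⟨u, hu, ho⟩ := SW.exists_orderOf Nat.prime_three (H := 𝐂[t]) (by rw [hc t ht]; norm_num)
  have g0 := index_mul_card 𝐂[t]
  rw [hc t ht, hG] at g0
  obtain ⟨-, -, b, h4, h5, h6⟩ := lv.near_hall Nat.prime_three (by norm_num) ho ht hu (by omega)
  have c12 : Nat.card 𝐂(V t b) = 12 := by
    have h1 := card_dvd_of_le (U4.cent_le_cent1 (t_mem_V t b))
    have h2 := ho ▸ Subgroup.orderOf_dvd_natCard _ h5
    have h3 := card_eq_relIndex_mul h4.V_le_cent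
    have h7 := (lv.syl t b h4).not_dvd
    rw [hc t ht] at h1
    rw [h4.card_V] at h3
    have := Nat.le_of_dvd (by norm_num) h1
    have := Nat.card_pos (α := 𝐂(V t b))
    omega
  have g1 := lv.index_norm_V h4 ho h6 c12 (by rw [hc t ht]; norm_num) (by omega)
  have g2 := index_mul_card 𝐂(V t b)
  rw [c12, ← relIndex_mul_index (U4.cent_le_norm _), lv.relIndex_six h4] at g2
  omega

theorem psl_of_dih {G : Type u} [Group G] [Finite G] [IsSimpleGroup G]
    (hna : ¬ IsMulCommutative G) (h : OW G) (hd : GD.Dih G) :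
    ∃ (p : ℕ) (_ : Fact p.Prime), (p = 5 ∨ p = 7) ∧ Nonempty (G ≃* PSL(2, ZMod p)) := by
  obtain ⟨F, i1, i2, h5, ho, ⟨e⟩⟩ := (GD.main G ‹_› hna hd).resolve_right (not_a7 hna h hd)
  have := Fact.mk (prime_of_ow ho (h.of_equiv e))
  have := charP_of_card_eq_prime (R := F) rfl
  have e' := e.trans (J1.pslCongr (ZMod.ringEquiv F rfl).symm)
  exact ⟨_, ‹_›, five_or_seven h5 (h.of_equiv e'), ⟨e'⟩⟩

end CfsgLib.Hom
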