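import Cfsg.Agent.Lib.Hom.Cen
import Cfsg.Agent.Lib.Hom.OddB
import Cfsg.Agent.Lib.GD.Basic

/-!
# A nonsolvable homogeneous group has a unique component
-/

set_option autoImplicit false

namespace CfsgLib.Hom

open Subgroup Cfsg CfsgLib.FT CfsgLib.FT.BGN

universe u

variable {G : Type u} [Group G] [Finite G] {p : ℕ}

theorem not_dvd_index {N : Subgroup G} {q : ℕ} (hq : q.Prime)
    (h : ∀ x : G, ∀ j, x ^ q ^ j = 1 → x ∈ N) : ¬ q ∣ N.index := fun hd => by
  have := Fact.mk hq
  obtain ⟨S⟩ : Nonempty (Sylow q G) := inferInstance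
  refine S.not_dvd_index (hd.trans (index_dvd_of_le fun x hx => ?_))
  obtain ⟨j, hj⟩ := exists_ppow S.isPGroup' hx
  exact h x j hj

omit [Finite G] in
theorem le_center_of_quot [Group.IsPerfect G] {V : Subgroup G} [V.Normal]
    (h : Group.IsSolvable (G ⧸ 𝐂(V))) : V ≤ center G := fun v hv => mem_center_iff.2 fun g => by
  have := SW.le_ker_of_perfect (QuotientGroup.mk' 𝐂(V)) (commutator_eq_self (H := ⊤)) (mem_top g)
  rw [QuotientGroup.ker_mk'] at this
  exact (U4.mem_cent.1 this v hv).symm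

theorem le_center_of_four [Group.IsPerfect G] {V : Subgroup G} [V.Normal] (h : Nat.card V ≤ 4) :
    V ≤ center G := fun v hv => mem_center_iff.2 fun g => by
  have h3 : Nat.card (Equiv.Perm V) ∣ 2 ^ 3 * 3 ^ 1 := Nat.card_perm (α := V) ▸
    Nat.factorial_dvd_factorial h
  obtain ⟨_, _, ha, hb, h3⟩ := exists_dvd_and_dvd_of_dvd_mul h3
  obtain ⟨a, -, rfl⟩ := (Nat.dvd_prime_pow Nat.prime_two).1 ha
  obtain ⟨b, -, rfl⟩ := (Nat.dvd_prime_pow Nat.prime_three).1 hb
  have := isSolvable_of_card_eq_pow_mul_pow Nat.prime_two Nat.prime_three h3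
  exact mul_inv_eq_iff_eq_mul.1 (congrArg Subtype.val (Equiv.congr_fun (SW.le_ker_of_perfect
    ((MulAut.toPerm V).comp MulAut.conjNormal) (commutator_eq_self (H := ⊤)) (mem_top g)) ⟨v, hv⟩))

theorem le_center_of_char [Group.IsPerfect G] (hG : Hm G) (hp : p.Prime) {V : Subgroup G}
    [hc : V.Characteristic] (hV : EA p V) : V ≤ center G := by
  have := Fact.mk hp
  have := Fact.mk Nat.prime_two
  have hn : ∀ g, g ∈ 𝐍(V) := fun g => le_normalizer_of_normal (mem_top g)
  by_cases h2 : p = 2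
  · subst h2
    by_cases h0 : V = ⊥
    · exact h0 ▸ bot_le
    obtain ⟨a, ha, a1⟩ := U4.exists_ne_one h0
    by_cases h : PV 2 V
    · exact le_center_of_quot (feit_thompson (Nat.odd_iff.2 (Nat.two_dvd_ne_zero.1
        (not_dvd_index hp fun x j => h x (hn x) j))))
    · refine le_center_of_four (card_eq_sq hp hG hV (fun x _ e => ?_) h).le
      by_cases x1 : x = 1
      · exact x1 ▸ one_mem V
      obtain ⟨φ, rfl⟩ := hG.cj ((orderOf_eq_prime (hV.pow a ha) a1).trans
        (orderOf_eq_prime e x1).symm)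
      exact (characteristic_iff_map_le.1 hc φ) ⟨a, ha, rfl⟩
  by_cases h5 : 5 ≤ p
  · refine le_center_of_quot (Group.isSolvable_of_comm fun a b => ?_)
    obtain ⟨a, rfl⟩ := QuotientGroup.mk_surjective a
    obtain ⟨b, rfl⟩ := QuotientGroup.mk_surjective b
    obtain ⟨k, hk⟩ := scalar_of_big hp hV (hG.na V) (c1_odd hp h2 hG V hV) (Or.inl h5) (hn a)
    refine QuotientGroup.eq.2 (mem_cent_of_conj fun v hv => ?_)
    have h1 := conj_mem_of_mem_normalizer (hn b) hv
    calc _ = (a * b)⁻¹ * (b * (a * v * a⁻¹) * b⁻¹) * (a * b) := by group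
      _ = (a * b)⁻¹ * (a * (b * v * b⁻¹) * a⁻¹) * (a * b) := by rw [hk v hv, hk _ h1, conj_pow]
      _ = v := by group
  · obtain ⟨n, hn'⟩ : ∃ n, (𝐂(V)).index = 2 ^ n :=
      ⟨_, Nat.eq_prime_pow_of_unique_prime_dvd index_ne_zero_of_finite fun {q} hq hd =>
        by_contra fun hq2 => not_dvd_index hq (fun x j e => by
          obtain ⟨i, -, hi⟩ := (Nat.dvd_prime_pow hq).1 (orderOf_dvd_of_pow_eq_one e)
          refine hG.ow.cent_of_lt hp h2 hV (hn x) hq ?_ hi
          have := hq.two_le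
          have := hp.eq_two_or_odd
          omega) hd⟩
    have := (IsPGroup.of_card (G := G ⧸ 𝐂(V)) hn').isNilpotent
    exact le_center_of_quot inferInstance

theorem fitting_le_center [Group.IsPerfect G] (hG : Hm G) : fittingSubgroup G ≤ center G := by
  refine fitting_le_of_forall_pCore_le fun p hp => ?_
  have := pCore_characteristic (G := G) p
  have hO := pCore_isPGroup (G := G) p
  generalize pCore p G = O at *
  by_cases h0 : O = ⊥
  · exact h0 ▸ bot_le
  have hc : ∀ a ∈ O ⊓ 𝐂(O), ∀ b ∈ O ⊓ 𝐂(O), Commute a b := fun a ha b hb =>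
    U4.mem_cent.1 hb.2 a ha.1
  let V : Subgroup G :=
    { carrier := {x | x ∈ O ⊓ 𝐂(O) ∧ x ^ p = 1}
      one_mem' := ⟨one_mem _, one_pow _⟩
      mul_mem' := fun {a b} ha hb => ⟨mul_mem ha.1 hb.1, by
        rw [(hc a ha.1 b hb.1).mul_pow, ha.2, hb.2, one_mul]⟩
      inv_mem' := fun {a} ha => ⟨inv_mem ha.1, by rw [inv_pow, ha.2, inv_one]⟩ }
  have : V.Characteristic := characteristic_iff_le_comap.2 fun φ x hx =>
    ⟨⟨characteristic_iff_le_comap.1 inferInstance φ hx.1.1,
      characteristic_iff_le_comap.1 inferInstance φ hx.1.2⟩, by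
      change φ x ^ p = 1
      rw [← map_pow, hx.2, map_one]⟩
  have h1 := le_center_of_char hG hp.out (V := V) ⟨fun v hv => hv.2, fun a ha b hb => hc a ha.1 b hb.1⟩
  obtain ⟨a, ha, ho⟩ := SW.exists_orderOf hp.out ((hO.to_inf_left (K := 𝐂(O))).card_eq_or_dvd.resolve_left
    fun e => inf_centralizer_ne_bot_of_isNilpotent hO.isNilpotent le_rfl le_normalizer h0
      (card_eq_one.1 e))
  have haZ := h1 ⟨ha, ho ▸ pow_orderOf_eq_one a⟩
  obtain ⟨h2, -, hd⟩ := center_struct hG (Group.isPerfect_def.1 inferInstance) fun e => by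
    rw [e, mem_bot] at haZ
    rw [haZ, orderOf_one] at ho
    exact hp.out.one_lt.ne ho
  obtain rfl : p = 2 := (Nat.prime_dvd_prime_iff_eq hp.out Nat.prime_two).1
    (h2 ▸ ho ▸ orderOf_dvd_natCard _ haZ)
  by_contra hn
  rw [← QuotientGroup.ker_mk' (center G), ← Subgroup.map_eq_bot_iff] at hn
  have := (inferInstance : O.Normal).map _ (QuotientGroup.mk'_surjective (center G))
  obtain ⟨N, hN, hNO⟩ := exists_isMinNormal_le _ hn
  have := hN.1
  have hN2 := (hO.map _).to_le hNO
  have := hN2.isNilpotent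
  obtain ⟨q, hq, -, hE⟩ := hN.exists_isElementaryAbelian inferInstance
  obtain ⟨x, hx⟩ := hd.exists_dt hN2
  obtain ⟨b, hb, b2⟩ := SW.exists_inv_two hN2 hN.2.1
  obtain rfl := (Nat.prime_dvd_prime_iff_eq Nat.prime_two hq).1
    (b2 ▸ orderOf_dvd_of_pow_eq_one (hE b hb))
  refine hN.2.1 (le_bot_iff.1 (Group.IsPerfect.center_quotient_center_eq_bot (G := G) ▸
    le_center_of_four ((Nat.le_of_dvd (by have := orderOf_pos x; omega) hx.card_dvd).trans ?_)))
  have := orderOf_le_of_pow_eq_one two_pos (hE x (hx.le (mem_zpowers x)))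
  omega

theorem exists_noncentral {L : Subgroup G} (hL : IsComponent L) :
    ∃ a ∈ L, a ∉ 𝐂(L) ∧ a * a ∈ fittingSubgroup G := by
  have := Fact.mk Nat.prime_two
  obtain ⟨hp, hs⟩ := hL.2
  obtain ⟨t, ht⟩ := exists_prime_orderOf_dvd_card' (G := L ⧸ center L) 2
    (even_iff_two_dvd.1 (Nat.not_odd_iff_even.1 fun h =>
      Group.IsPerfect.not_isSolvable (L ⧸ center L) (feit_thompson h)))
  obtain ⟨a, rfl⟩ := QuotientGroup.mk_surjective t
  refine ⟨a, a.2, fun h => GW.ne_one_of_inv ht ((QuotientGroup.eq_one_iff a).2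
    (mem_center_iff.2 fun b => Subtype.ext (U4.mem_cent.1 h b b.2))),
    map_fitting_le_of_isSubnormal hL.1 ⟨a * a, center_le_fitting ?_, rfl⟩⟩
  exact (QuotientGroup.eq_one_iff _).1 (GW.mul_self_of_inv ht)

theorem comp_unique [Group.IsPerfect G] (hG : Hm G) {K L : Subgroup G} (hK : IsComponent K)
    (hL : IsComponent L) : K = L := by
  by_contra hn
  have hc : ∀ {K L : Subgroup G}, IsComponent K → IsComponent L → K ≠ L → K ≤ 𝐂(L) :=
    fun hK hL hn => commutator_eq_bot_iff_le_centralizer.1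
      ((isComponent_eq_or_commutator_eq_bot hK hL).resolve_left hn)
  obtain ⟨a, ha, a1, a2⟩ := exists_noncentral hK
  obtain ⟨b, hb, b1, b2⟩ := exists_noncentral hL
  have hF := fitting_le_center hG
  have hbK := hc hL hK (Ne.symm hn) hb
  have h1 : a * b ∉ 𝐂(K) := fun h => a1 ((mul_mem_cancel_right hbK).1 h)
  have h2 : a * b ∉ 𝐂(L) := fun h => b1 ((mul_mem_cancel_left (hc hK hL hn ha)).1 h)
  have h3 : a * b * (a * b) = a * a * (b * b) := by
    rw [mul_assoc, ← mul_assoc b, ← U4.mem_cent.1 hbK a ha]; group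
  by_cases hz : center G = ⊥
  · rw [hz] at hF
    obtain ⟨φ, e⟩ := hG.cj ((GW.inv_of_mul_self (hF a2) fun e => a1 (e ▸ one_mem _)).trans
      (GW.inv_of_mul_self (t := a * b) (by rw [h3, mem_bot.1 (hF a2), mem_bot.1 (hF b2), one_mul])
        fun e => h1 (e ▸ one_mem _)).symm)
    have h4 : a * b ∈ K.map (φ : G →* G) := ⟨a, ha, e⟩
    have h5 := isComponent_map_equiv hK φ
    exact hn ((by_contra fun e => h1 (hc h5 hK e h4) : _ = K).symm.trans
      (by_contra fun e => h2 (hc h5 hL e h4)))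
  obtain ⟨h4, h5, -⟩ := center_struct hG (Group.isPerfect_def.1 inferInstance) hz
  have hZ : ∀ H : Subgroup G, center G ≤ 𝐂(H) := fun H => center_le_centralizer _
  have h6 : zpowers (a * a) = center G := U4.zpowers_eq_of_card_prime (h4 ▸ Nat.prime_two) (hF a2)
    fun e => a1 (hZ K (h5 a e))
  have h7 : orderOf (a * a) = 2 := by rw [← Nat.card_zpowers, h6, h4]
  rcases (GW.mem_zpowers_inv h7).1 (h6 ▸ hF b2) with e | e
  · exact b1 (hZ L (h5 b e))
  · exact h1 (hZ K (h5 _ (by rw [h3, e, GW.mul_self_of_inv h7])))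

theorem exists_char_quasi' (hG : Hm G) (hns : ¬ Group.IsSolvable G) :
    ∃ L : Subgroup G, L.Characteristic ∧ IsQuasisimple L := by
  obtain ⟨n, hn⟩ := WellFoundedLT.antitone_chain_condition (derivedSeries_antitone G)
  have := isPerfect_iff.2 (hn (n + 1) n.le_succ).symm
  have := (nontrivial_iff_ne_bot (derivedSeries G n)).2 fun h0 => hns ⟨⟨n, h0⟩⟩
  have hK := hG.char (derivedSeries G n)
  obtain ⟨L, -, h1, h2, h3 | h3⟩ := exists_component_or_nilpotent (C := ⊤)
    (Z := center (derivedSeries G n)) (inferInstance : (⊤ : Subgroup _).Normal).isSubnormal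
    (le_centralizer_iff.1 (center_le_centralizer _)) fun h =>
      Group.IsPerfect.not_isMulCommutative (derivedSeries G n)
        ⟨⟨fun a b => mem_center_iff.1 (h (mem_top b)) a⟩⟩
  · exact absurd ((le_fitting_of_isSubnormal h2 h3).trans (fitting_le_center hK)) h1
  have : L.Characteristic := characteristic_iff_map_eq.2 fun φ =>
    comp_unique hK (isComponent_map_equiv h3 φ) h3
  exact ⟨L.map (derivedSeries G n).subtype, inferInstance,
    isQuasisimple_of_equiv h3.2 (L.equivMapOfInjective _ (subtype_injective _))⟩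

end CfsgLib.Hom
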