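import Cfsg.Agent.Lib.Hom.CaseII

/-!
# `2`-groups whose centre is a four-group rotated by an automorphism
-/

set_option autoImplicit false

namespace CfsgLib.Hom

open Subgroup Cfsg CfsgLib.FT CfsgLib.FT.BGN

variable {G : Type*} [Group G] [Finite G] {T E : Subgroup G} {ρ : G}

omit [Finite G] in
theorem EA.mul_self (hE : EA 2 E) {a : G} (ha : a ∈ E) : a * a = 1 := (sq a).symm.trans (hE.pow a ha)

omit [Finite G] in
theorem EA.four (hE : EA 2 E) {a b : G} (ha : a ∈ E) (hb : b ∈ E) (a1 : a ≠ 1) (b1 : b ≠ 1)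
    (hab : a ≠ b) : GW.Four a b :=
  ⟨GW.inv_of_mul_self (hE.mul_self ha) a1, GW.inv_of_mul_self (hE.mul_self hb) b1,
    hE.comm a ha b hb, hab⟩

theorem EA.cases (hE : EA 2 E) (h4 : Nat.card E = 4) {a b v : G} (ha : a ∈ E) (hb : b ∈ E)
    (a1 : a ≠ 1) (b1 : b ≠ 1) (hab : a ≠ b) (hv : v ∈ E) : v = 1 ∨ v = a ∨ v = b ∨ v = a * b := by
  have h := hE.four ha hb a1 b1 hab
  rwa [← h.mem_V, eq_of_le_of_card_ge (GW.V_le ha hb) (h4.trans h.card_V.symm).le]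

theorem exists_comm_eq {K : Subgroup G} {t : G} (hn : t ∈ 𝐍(K))
    (h : ∀ x ∈ K, t * x * t⁻¹ = x → x = 1) {y : G} (hy : y ∈ K) :
    ∃ x ∈ K, x * (t * x * t⁻¹)⁻¹ = y := by
  let φ : K →* K :=
    { toFun := fun k => ⟨t * k * t⁻¹, conj_mem_of_mem_normalizer hn k.2⟩
      map_one' := by simp
      map_mul' := fun a b => Subtype.ext (by simp) }
  have h1 : MonoidHom.FixedPointFree φ := fun k hk =>
    Subtype.ext (h k k.2 (congrArg Subtype.val hk))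
  obtain ⟨x, hx⟩ := h1.commutatorMap_surjective ⟨y, hy⟩
  exact ⟨x, x.2, (div_eq_mul_inv _ _).symm.trans (congrArg Subtype.val hx)⟩

/-- A linear functional on a `2`-group from a maximal subgroup. -/
theorem exists_fn_of_coatom (hT : IsPGroup 2 T) {M : Subgroup T} (hM : IsCoatom M) :
    ∃ l : G → ZMod 2, Fn 2 T l ∧ ∀ x : T, l x = 0 ↔ x ∈ M := by
  classical
  have := Fact.mk Nat.prime_two
  have h2 := (PGrp.isCoatom_iff_index_eq hT).1 hM
  have h0 : ∀ x : T, (x : G) ∈ M.map T.subtype ↔ x ∈ M := fun x =>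
    mem_map_iff_mem T.subtype_injective
  refine ⟨fun x => if x ∈ M.map T.subtype then 0 else 1, fun a ha b hb => ?_, fun x => ?_⟩
  · have := mul_mem_iff_of_index_two h2 (a := ⟨a, ha⟩) (b := ⟨b, hb⟩)
    rw [← h0, ← h0, ← h0] at this
    simp only [coe_mul] at this
    by_cases h1 : a ∈ M.map T.subtype <;> by_cases h2 : b ∈ M.map T.subtype <;>
      simp only [this, h1, h2, if_true, if_false, iff_self, iff_false, iff_true, not_true] <;> rfl
  · simp only [h0]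
    split_ifs with h <;> simp [h]

omit [Finite G] in
theorem zmod_two (c : ZMod 2) : c = 0 ∨ c = 1 := by revert c; decide

/-- `T` is a `2`-group with `Ω₁(T) = Z(T) = E` of order four, rotated by `ρ`. -/
structure Rot (T E : Subgroup G) (ρ : G) : Prop where
  two : IsPGroup 2 T
  ea : EA 2 E
  card : Nat.card E = 4
  le : E ≤ T
  cent : T ≤ 𝐂(E)
  om : ∀ x ∈ T, x ^ 2 = 1 → x ∈ E
  zc : T ⊓ 𝐂(T) ≤ E
  nT : ρ ∈ 𝐍(T)
  nE : ρ ∈ 𝐍(E)
  fpf : ∀ e ∈ E, ρ * e * ρ⁻¹ = e → e = 1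

theorem rot3 (hE : EA 2 E) (h4 : Nat.card E = 4) (hn : ρ ∈ 𝐍(E))
    (fpf : ∀ e ∈ E, ρ * e * ρ⁻¹ = e → e = 1) {e : G} (he : e ∈ E) :
    e * (ρ * e * ρ⁻¹) * (ρ * (ρ * e * ρ⁻¹) * ρ⁻¹) = 1 := by
  by_cases e1 : e = 1
  · simp [e1]
  have h1 := conj_mem_of_mem_normalizer hn he
  have h2 := U4.conj_ne_one_iff (g := ρ).2 e1
  have h3 : e ≠ ρ * e * ρ⁻¹ := fun h => e1 (fpf e he h.symm)
  rcases hE.cases h4 he h1 e1 h2 h3 (conj_mem_of_mem_normalizer hn h1) with h | h | h | h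
  · exact absurd h (U4.conj_ne_one_iff.2 h2)
  · exact absurd (fpf _ (mul_mem he h1) (by rw [← _root_.conj_mul, h, hE.comm e he _ h1]))
      (hE.four he h1 e1 h2 h3).ts1
  · exact absurd (fpf _ h1 h) h2
  · rw [h, hE.mul_self (mul_mem he h1)]

namespace Rot

variable (h : Rot T E ρ)
include h

omit [Finite G] in
theorem fpf' {x : G} (hx : x ∈ T) (e : ρ * x * ρ⁻¹ = x) : x = 1 := by
  obtain ⟨k, hk⟩ := exists_ppow h.two hx
  induction k with
  | zero => simpa using hk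
  | succ k ih =>
    exact ih (h.fpf _ (h.om _ (pow_mem hx _) (by rw [← pow_mul, ← pow_succ, hk]))
      (by rw [← conj_pow, e]))

theorem r1 {z d : G} (hz : z ∈ E) (hd : d ∈ T)
    (H : ∀ x ∈ T, d * x * d⁻¹ = x ∨ d * x * d⁻¹ = x * z) : d ∈ E := by
  by_cases z1 : z = 1
  · exact h.zc ⟨hd, mem_cent_of_conj fun x hx => by simpa [z1] using H x hx⟩
  let P : G → G → Prop := fun d z => d ∈ T ∧ z ∈ E ∧ z ≠ 1 ∧
    ∀ x ∈ T, ∃ a, (a = 1 ∨ a = z) ∧ ∀ e ∈ E, d * (x * e) * d⁻¹ = x * (a * e)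
  have P0 : P d z := ⟨hd, hz, z1, fun x hx => by
    rcases H x hx with e | e
    · exact ⟨1, Or.inl rfl, fun f hf => by
        rw [← _root_.conj_mul, e, conj_eq_of_cent (h.cent hd) hf, one_mul]⟩
    · exact ⟨z, Or.inr rfl, fun f hf => by
        rw [← _root_.conj_mul, e, conj_eq_of_cent (h.cent hd) hf, mul_assoc]⟩⟩
  have P1 : ∀ {d z}, P d z → P (ρ * d * ρ⁻¹) (ρ * z * ρ⁻¹) := fun {d z} ⟨hd, hz, z1, H⟩ =>
    ⟨conj_mem_of_mem_normalizer h.nT hd, conj_mem_of_mem_normalizer h.nE hz,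
      U4.conj_ne_one_iff.2 z1, fun x hx => by
      obtain ⟨a, ha, e⟩ := H _ (conj_mem_of_mem_normalizer' h.nT hx)
      refine ⟨ρ * a * ρ⁻¹, ha.imp (fun e => by simp [e]) fun e => by rw [e], fun f hf => ?_⟩
      have := e _ (conj_mem_of_mem_normalizer' h.nE hf)
      calc _ = ρ * (d * (ρ⁻¹ * x * ρ * (ρ⁻¹ * f * ρ)) * d⁻¹) * ρ⁻¹ := by group
        _ = _ := by rw [this]; group⟩
  have P2 : ∀ {d z d' z'}, P d z → P d' z' → z ≠ z' → Commute d d' :=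
    fun {d z d' z'} ⟨hd, hz, _, H⟩ ⟨hd', hz', _, H'⟩ hn => by
      obtain ⟨a, ha, e⟩ := H _ hd'
      obtain ⟨b, hb, e'⟩ := H' _ hd
      have e1 := e 1 (one_mem _)
      have e2 := e' 1 (one_mem _)
      rw [mul_one, mul_one, mul_inv_eq_iff_eq_mul] at e1 e2
      rcases ha with rfl | rfl
      · rwa [mul_one] at e1
      rcases hb with rfl | rfl
      · rw [mul_one] at e2
        exact e2.symm
      rw [mul_assoc, U4.mem_cent.1 (h.cent hd) a hz, ← mul_assoc, e2, mul_assoc d,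
        U4.mem_cent.1 (h.cent hd') b hz', ← mul_assoc, mul_assoc, left_eq_mul] at e1
      exact absurd (mul_left_cancel (e1.trans (h.ea.mul_self hz').symm)) hn
  have h3 := rot3 h.ea h.card h.nE h.fpf hz
  have Q1 := P1 P0
  have Q2 := P1 Q1
  have n1 : ∀ {z}, z ∈ E → z ≠ 1 → z ≠ ρ * z * ρ⁻¹ := fun hz z1 e => z1 (h.fpf _ hz e.symm)
  have hsq : d * d ∈ E := h.zc ⟨mul_mem hd hd, mem_cent_of_conj fun x hx => by
    obtain ⟨a, ha, e⟩ := P0.2.2.2 x hx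
    have ha' : a ∈ E := ha.elim (fun e => e ▸ one_mem E) fun e => e ▸ hz
    have e1 := e 1 (one_mem _)
    rw [mul_one, mul_one] at e1
    rw [show d * d * x * (d * d)⁻¹ = d * (d * x * d⁻¹) * d⁻¹ by group, e1, e a ha',
      h.ea.mul_self ha', mul_one]⟩
  have h4 := rot3 h.ea h.card h.nE h.fpf hsq
  rw [← _root_.conj_mul (b := ρ) (a := d), ← _root_.conj_mul (b := ρ) (a := ρ * d * ρ⁻¹)] at h4
  have key : ∀ x ∈ T, d * x * d⁻¹ = x ↔ d * (ρ * x * ρ⁻¹) * d⁻¹ = ρ * x * ρ⁻¹ := by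
    suffices ∀ x ∈ T, d * x * d⁻¹ = x ↔ ρ * d * ρ⁻¹ * x * (ρ * d * ρ⁻¹)⁻¹ = x from fun x hx => by
      rw [this _ (conj_mem_of_mem_normalizer h.nT hx), conj_inv, _root_.conj_mul,
        _root_.conj_mul, mul_left_inj, mul_right_inj]
    have c1 := P2 P0 Q1 (n1 hz z1)
    have c2 := P2 Q1 Q2 (n1 Q1.2.1 Q1.2.2.1)
    have n2 : z ≠ ρ * (ρ * z * ρ⁻¹) * ρ⁻¹ := fun e => Q1.2.2.1 (by
      rwa [← e, h.ea.comm z hz _ Q1.2.1, mul_assoc, h.ea.mul_self hz, mul_one] at h3)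
    have c3 := P2 P0 Q2 n2
    generalize ρ * (ρ * d * ρ⁻¹) * ρ⁻¹ = d2, ρ * (ρ * z * ρ⁻¹) * ρ⁻¹ = z'' at *
    generalize ρ * d * ρ⁻¹ = d1, ρ * z * ρ⁻¹ = z' at *
    have h5 := h.om _ (mul_mem (mul_mem hd Q1.1) Q2.1) (by
      rw [(c3.mul_left c2).mul_pow, c1.mul_pow, sq, sq, sq, h4])
    intro x hx
    obtain ⟨a, ha, ea⟩ := P0.2.2.2 x hx
    obtain ⟨b, hb, eb⟩ := Q1.2.2.2 x hx
    obtain ⟨c, hc, ec⟩ := Q2.2.2.2 x hx
    have hb' : b ∈ E := hb.elim (fun e => e ▸ one_mem E) fun e => e ▸ Q1.2.1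
    have hc' : c ∈ E := hc.elim (fun e => e ▸ one_mem E) fun e => e ▸ Q2.2.1
    have h6 := conj_eq_of_cent (le_centralizer_iff.1 h.cent h5) hx
    have e1 := ea 1 (one_mem _)
    have e2 := eb 1 (one_mem _)
    have e3 := ec 1 (one_mem _)
    simp only [mul_one] at e1 e2 e3
    rw [show d * d1 * d2 * x * (d * d1 * d2)⁻¹ = d * (d1 * (d2 * x * d2⁻¹) * d1⁻¹) * d⁻¹ by group,
      e3, eb c hc', ea _ (mul_mem hb' hc'), mul_eq_left] at h6
    rw [e1, e2, mul_eq_left, mul_eq_left]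
    rcases ha with rfl | rfl <;> rcases hb with rfl | rfl <;> rcases hc with rfl | rfl
    any_goals simp only [one_mul, mul_one, z1, Q1.2.2.1] at h6 ⊢
    · rw [mul_assoc, h6, mul_one] at h3
      exact absurd h3 z1
    · exact absurd (mul_left_cancel ((h.ea.mul_self hz).trans h6.symm)) n2
  refine h.zc ⟨hd, mem_cent_of_conj fun y hy => ?_⟩
  obtain ⟨x, hx, rfl⟩ := exists_comm_eq h.nT (fun x hx => h.fpf' hx) hy
  have hx' := conj_mem_of_mem_normalizer h.nT hx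
  rw [← _root_.conj_mul, ← conj_inv]
  by_cases e : d * x * d⁻¹ = x
  · rw [e, (key x hx).1 e]
  · rw [(H x hx).resolve_left e, (H _ hx').resolve_left (mt (key x hx).2 e)]
    group

/-- The form in which `r1` is applied. -/
theorem fn_eq_zero {z k : G} (hz : z ∈ E) (z1 : z ≠ 1) (hk : k ∈ T) {l : G → ZMod 2}
    (e : ∀ x ∈ T, k * x * k⁻¹ = x * z ^ (l x).val) {x : G} (hx : x ∈ T) : l x = 0 := by
  have h1 := h.r1 hz hk fun x hx => by
    rcases zmod_two (l x) with h | h <;> simp [e x hx, h, ZMod.val_one]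
  have h2 := e x hx
  rw [conj_eq_of_cent (le_centralizer_iff.1 h.cent h1) hx, left_eq_mul] at h2
  exact eq_zero_of_pow_val Nat.prime_two (h.ea.pow z hz) z1 h2

end Rot

end CfsgLib.Hom
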