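import Cfsg.Agent.Lib.Hom.TwoA
import Cfsg.Agent.Lib.TwoGroupMaxClass

/-!
# Case II for the prime `2`
-/

set_option autoImplicit false

namespace CfsgLib.Hom

open Subgroup Cfsg CfsgLib.FT CfsgLib.FT.BGN

variable {G : Type*} [Group G] [Finite G] {S E : Subgroup G}

theorem c2_of_sylow (hS : IsSylowIn 2 S ⊤) {x : G} (hx : x ∈ S) (h : Nat.card S = orderOf x * 2) :
    SW.C2 G := SW.C2.of_sylow fun Q => by
  have := Fact.mk Nat.prime_two
  obtain ⟨g, -, hg⟩ := (IsSylowIn.sylow_top Q).exists_conj_eq hS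
  refine ⟨g * x * g⁻¹, ?_⟩
  rw [← card_mul_relIndex (zpowers_le.2 hx), Nat.card_zpowers] at h
  rw [← hg, U4.zpowers_conj, U4.relIndex_conj, Nat.eq_of_mul_eq_mul_left (orderOf_pos x) h]

theorem c2_of_cent (hS : IsSylowIn 2 S ⊤) (hE : EA 2 E) (h4 : Nat.card E = 4) (hES : E ≤ S)
    (h : S ⊓ 𝐂(E) ≤ E) : SW.C2 G := by
  have := Fact.mk Nat.prime_two
  by_cases hc : IsMulCommutative S
  · obtain ⟨a, ha, a1⟩ := exists_not_mem_of_card (W := ⊥) (E := E) (by rw [card_bot, h4]; omega)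
    refine c2_of_sylow hS (hES ha) ?_
    rw [orderOf_eq_prime (hE.pow a ha) a1, ← le_antisymm hES
      ((le_inf le_rfl ((le_centralizer_iff_isMulCommutative.2 hc).trans (centralizer_le hES))).trans h),
      h4]
  have h1 : Nat.card (E.subgroupOf S) = 2 ^ 2 :=
    (Nat.card_congr (subgroupOfEquivOfLe hES).toEquiv).trans h4
  obtain ⟨a, -, ha⟩ := PGrp.exists_card_centralizer_eq_sq hS.isPGroup h1 fun x hx =>
    h ⟨x.2, U4.mem_cent.2 fun e he => congrArg Subtype.val (hx ⟨e, hES he⟩ he)⟩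
  obtain ⟨n, x, y, -, h2, h3, -⟩ := PGrp.isDQSD_of_card_centralizer hS.isPGroup hc (a := a)
    (by rw [ha, h1]; rfl)
  exact c2_of_sylow hS x.2 (by rw [orderOf_coe, h2, h3, pow_succ])

omit [Finite G] in
theorem Fn.conj_self {p : ℕ} {V : Subgroup G} {l : G → ZMod p} (h : Fn p V l) {a b : G} (ha : a ∈ V)
    (hb : b ∈ V) : l (a⁻¹ * b * a) = l b := by
  rw [h _ (mul_mem (inv_mem ha) hb) a ha, h _ (inv_mem ha) b hb, h.inv ha]
  ring

/-- An invariant functional. -/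
theorem exists_fn_inv {C : Subgroup G} (hC : IsPGroup 2 C) (h : ¬ C ≤ E) {u : G}
    (hu : u ∈ 𝐍(C)) (huE : u ∈ 𝐍(E)) (h2 : u * u ∈ C) : ∃ l : G → ZMod 2, Fn 2 C l ∧
      (∀ e ∈ E ⊓ C, l e = 0) ∧ (∀ x ∈ C, l (u⁻¹ * x * u) = l x) ∧ ∃ x ∈ C, l x ≠ 0 := by
  obtain ⟨M, hM, hEM⟩ := (eq_top_or_exists_le_coatom (E.subgroupOf C)).resolve_left
    fun e => h (subgroupOf_eq_top.1 e)
  obtain ⟨l, hl, h0⟩ := exists_fn_of_coatom hC hM
  have h1 : ∀ e ∈ E ⊓ C, l e = 0 := fun e he => (h0 ⟨e, he.2⟩).2 (hEM he.1)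
  by_cases hi : ∀ x ∈ C, l (u⁻¹ * x * u) = l x
  · obtain ⟨x, -, hx⟩ := SetLike.exists_of_lt hM.1.lt_top
    exact ⟨l, hl, h1, hi, x, x.2, mt (h0 x).1 hx⟩
  push Not at hi
  obtain ⟨x, hx, hi⟩ := hi
  refine ⟨fun x => l x + l (u⁻¹ * x * u), fun a ha b hb => ?_, fun e he => ?_, fun y hy => ?_,
    x, hx, fun e => hi ?_⟩
  · simp only
    rw [hl a ha b hb, show u⁻¹ * (a * b) * u = u⁻¹ * a * u * (u⁻¹ * b * u) by group,
      hl _ (conj_mem_of_mem_normalizer' hu ha) _ (conj_mem_of_mem_normalizer' hu hb)]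
    ring
  · simp only
    rw [h1 e he, h1 _ (conj_mem_of_mem_normalizer' (norm_inf huE hu) he), add_zero]
  · simp only
    rw [show u⁻¹ * (u⁻¹ * y * u) * u = (u * u)⁻¹ * y * (u * u) by group, hl.conj_self h2 hy, add_comm]
  · revert e
    simp only
    generalize l x = c, l (u⁻¹ * x * u) = d
    revert c d
    decide

theorem c2_of_not_pv (hG : Hm G) (hE : EA 2 E) (hm : Mx 2 E) (h : ¬ PV 2 E) : SW.C2 G := by
  have := Fact.mk Nat.prime_two
  have hp := Nat.prime_two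
  have h4 : Nat.card E = 4 := card_eq_sq hp hG hE hm h
  have hN := hG.na E
  obtain ⟨C, hC⟩ := IsSylowIn.exists_in (p := 2) 𝐂(E)
  have hEC := hE.le_sylow hp hC
  obtain ⟨S, hES, hS⟩ := IsSylowIn.exists_ge hE.isPGroup le_top
  suffices C ≤ E from c2_of_cent hS hE h4 hES
    ((hC.eq_of_le hS.isPGroup.to_inf_left (le_inf (this.trans hES) hC.le) inf_le_right).le.trans this)
  by_contra hCE
  obtain ⟨a, ha, a1⟩ := exists_not_mem_of_card (W := ⊥) (E := E) (by rw [card_bot, h4]; omega)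
  obtain ⟨b, hb, n2⟩ := exists_not_mem_of_card (E := E)
    ((card_zpowers_le hp (hE.pow a ha)).trans_lt (by rw [h4]; omega))
  obtain ⟨l, hl, l1, l0⟩ := hE.exists_fn hp (zpowers_le.2 ha) hb n2
  obtain ⟨m, hm', m1, m0⟩ := hE.exists_fn hp (zpowers_le.2 hb) ha
    fun h => n2 (mem_zpowers_symm hp (hE.pow b hb) a1 h)
  replace l0 := l0 a (mem_zpowers a)
  replace m0 := m0 b (mem_zpowers b)
  obtain ⟨t0, ht0, e0⟩ := exists_transv hp hE hN h hl ha l0
  obtain ⟨s, hs, es⟩ := exists_transv hp hE hN h hm' hb m0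
  have b1 : b ≠ 1 := fun e => n2 (e ▸ one_mem _)
  have hab : a ≠ b := fun e => n2 (e ▸ mem_zpowers a)
  have ta : t0 * a * t0⁻¹ = a := by rw [e0 a ha, l0]; simp
  have tb : t0 * b * t0⁻¹ = b * a := by rw [e0 b hb, l1, ZMod.val_one, pow_one]
  obtain ⟨ρ, hρE, hρ, eρ⟩ := exists_frat hp hC (mul_mem ht0 hs)
  have ρa : ρ * a * ρ⁻¹ = b := by
    rw [eρ a ha, show t0 * s * a * (t0 * s)⁻¹ = t0 * (s * a * s⁻¹) * t0⁻¹ by group, es a ha, m1,
      ZMod.val_one, pow_one, ← _root_.conj_mul, ta, tb, ← hE.comm a ha b hb, ← mul_assoc,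
      hE.mul_self ha, one_mul]
  have ρb : ρ * b * ρ⁻¹ = b * a := by
    rw [eρ b hb, show t0 * s * b * (t0 * s)⁻¹ = t0 * (s * b * s⁻¹) * t0⁻¹ by group, es b hb, m0,
      ZMod.val_zero, pow_zero, mul_one, tb]
  have R : Rot C E ρ := ⟨hC.isPGroup, hE, h4, hEC, hC.le, fun x hx => hm x (hC.le hx),
    zc hp hG hE hm hC (hne_of_not_pv hp hE hN h), hρ, hρE, fun e he h => by
      rcases hE.cases h4 ha hb a1 b1 hab he with rfl | rfl | rfl | rfl
      · rfl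
      · exact absurd (ρa.symm.trans h).symm hab
      · exact absurd (mul_eq_left.1 (ρb.symm.trans h)) a1
      · rw [← _root_.conj_mul, ρa, ρb, ← mul_assoc, hE.mul_self hb, one_mul, left_eq_mul] at h
        exact absurd h b1⟩
  obtain ⟨t1, ht1E, ht1, e1⟩ := exists_frat hp hC ht0
  obtain ⟨t, ht, ⟨j, hj⟩, et⟩ := exists_ppart_act hp (A := E) (E := zpowers a) (k := t1)
    (EA.zpowers (hE.pow a ha)).pow
    (by rw [U4.cent_zpowers]; exact U4.mem_cent1_of_conj_eq ((e1 a ha).trans ta))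
    (fun v _ => pow_mem (mem_zpowers a) (l v).val) fun v hv => (e1 v hv).trans (e0 v hv)
  have htE := zpowers_le.2 ht1E ht
  replace ht := zpowers_le.2 ht1 ht
  obtain ⟨f, hf, f0, f1, x, hx, f2⟩ := exists_fn_inv hC.isPGroup hCE ht htE
    (mem_of_ppow hp hC (mem_cent_of_conj fun v hv => by
      rw [← sq, pow_conj_of_act (by rw [← conj_pow, et a ha, l0]; simp) (et v hv),
        hE.pow _ (pow_mem ha _), mul_one])
      (mul_mem ht ht) (j := j) (by rw [(Commute.refl t).mul_pow, hj, one_mul]))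
  obtain ⟨k, hk, ⟨i, hi⟩, e⟩ := (hG.na C).cen_p hp hEC (le_centralizer_iff.1 hC.le) hE.pow
    (f := fun x => b ^ (f x).val) (fun _ _ => pow_mem hb _)
    (fun x hx y hy => by rw [hf x hx y hy, pow_val_add (hE.pow b hb)])
    (fun e he => by rw [f0 e ⟨he, hEC he⟩]; simp) ht htE
  replace e : ∀ y ∈ C, k * y * k⁻¹ = y * a ^ (f y).val := fun y hy => by
    rw [e y hy, f1 y hy]
    rcases zmod_two (f y) with h | h <;> rw [h]
    · simp
    · rw [ZMod.val_one, pow_one, pow_one, et b hb, l1, ZMod.val_one, pow_one, ← hE.comm a ha b hb,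
        mul_inv_rev, mul_inv_cancel_left, inv_eq_of_mul_eq_one_right (hE.mul_self ha)]
  exact f2 (R.fn_eq_zero ha a1 (mem_of_ppow hp hC (mem_cent_of_conj fun v hv => by
    rw [e v (hEC hv), f0 v ⟨hv, hEC hv⟩]; simp) hk hi) e hx)

end CfsgLib.Hom
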